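import Cfsg.Agent.H3.O8Def
import Cfsg.Agent.H6.O8.Loc5

/-!
# The involution centralizer inside the ambient subgroup: identification with `Ω₈⁺(2)`
-/

set_option autoImplicit false

namespace Cfsg.Agent.H6.O8x

open Subgroup Cfsg.Agent.H3.O8 Cfsg.Agent.H3.L43 Cfsg.Agent.H6.O8

/-- An affine map of the field of three elements. -/
def pm (x : ZMod 3) (s : Bool) : Equiv.Perm (Fin 3) :=
  Equiv.addLeft (G := ZMod 3) x * if s then Equiv.neg (ZMod 3) else 1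

theorem pm_mul : ∀ (x y : ZMod 3) (s s' : Bool),
    pm (x + if s then -y else y) (xor s s') = pm x s * pm y s' := by decide

theorem pm_one : ∀ (x : ZMod 3) (s : Bool), pm x s = 1 ↔ x = 0 ∧ s = false := by decide

theorem pm_surj : ∀ l, ∃ x s, pm x s = l := by decide

/-- The image in `S₃ × S₃ × S₃`. -/
def af (v : V) (a : SP) : L3 := fun k => pm (v k.castSucc) (a.e k.castSucc)

theorem af_mul (u v : V) {a : SP} (a' : SP) (h : a.p = 1) :
    af (u + a.act v) (a * a') = af u a * af v a' := by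
  funext k
  simp only [af, Pi.mul_apply, Pi.add_apply, SP.act, SP.mul_e, h, inv_one, Equiv.Perm.one_apply,
    pm_mul]

theorem af_one {v : V} {a : SP} (hv : v 3 = 0) (ha : a.p = 1) :
    af v a = 1 ↔ v = 0 ∧ (a = 1 ∨ a = sg 3) := by
  have k : ∀ a : SP, a.p = 1 → ((a = 1 ∨ a = sg 3) ↔ ∀ k : Fin 3, a.e k.castSucc = false) := by
    decide +kernel
  rw [k a ha, funext_iff]
  simp only [af, Pi.one_apply, pm_one, forall_and]
  refine and_congr_left fun _ => ⟨fun h => funext fun j => ?_, fun h j => by rw [h]; rfl⟩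
  fin_cases j
  exacts [h 0, h 1, h 2, hv]

theorem af_surj (l : L3) : ∃ v a, v 3 = 0 ∧ a.p = 1 ∧ af v a = l := by
  choose x s h using pm_surj
  refine ⟨![x (l 0), x (l 1), x (l 2), 0], ⟨![s (l 0), s (l 1), s (l 2), false], 1⟩, rfl, rfl, ?_⟩
  funext k
  fin_cases k
  exacts [h _, h _, h _]

theorem act_three {a : SP} (h : a.p = 1) {v : V} (hv : v 3 = 0) : a.act v 3 = 0 := by
  simp [SP.act, h, hv]

variable {G : Type*} [Group G] {b : Bool} {ξ : V → G} {μ : SP → G} {i : G}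

theorem nM (c : Cfg b ξ μ i) {a : SP} (ha : a.p = 1) {e : G} (he : e ∈ EE ξ μ i) :
    cj (μ a) e ∈ EE ξ μ i := by
  induction he using closure_induction with
  | mem g hg =>
    obtain ⟨a', ha', e, he, rfl⟩ := hg
    exact subset_closure ⟨a * a', by rw [SP.mul_p, ha, ha', mul_one], e, he, by
      rw [c.mul _ _ (ok_p ha) (ok_p ha'), mul_cj]⟩
  | one => rw [cj_one]; exact one_mem _
  | mul x y _ _ hx hy => rw [cj_mul]; exact mul_mem hx hy
  | inv x _ hx => rw [cj_inv]; exact inv_mem hx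

theorem v4_of {a : SP} (ha : a.p = 1) : a.v4 := ⟨by simp [SP.ev, ha], by rw [ha, mul_one]⟩

theorem EE_le {N : Subgroup G} (A : Amb b ξ μ i N) : EE ξ μ i ≤ N := by
  have h1 : E1 ξ i ≤ N := (closure_le _).2 (by
    rintro g (rfl | rfl)
    · exact A.i
    · exact mul_mem (mul_mem (A.J _) A.i) (inv_mem (A.J _)))
  refine (closure_le _).2 ?_
  rintro g ⟨a, ha, e, he, rfl⟩
  have := (A.mu a (ok_p ha)).2 (v4_of ha)
  exact mul_mem (mul_mem this (h1 he)) (inv_mem this)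

/-- The properties of the extraspecial group. -/
structure EA (ξ : V → G) (μ : SP → G) (i : G) : Prop where
  t : μ (sg 3) ∈ EE ξ μ i
  cen : ∀ e ∈ EE ξ μ i, Commute e (μ (sg 3))
  sq : ∀ e ∈ EE ξ μ i, e * e = 1 ∨ e * e = μ (sg 3)
  com : ∀ e ∈ EE ξ μ i, ∀ f ∈ EE ξ μ i, e * f = f * e ∨ e * f = μ (sg 3) * (f * e)
  zen : ∀ e ∈ EE ξ μ i, (∀ f ∈ EE ξ μ i, f * e = e * f) → e = 1 ∨ e = μ (sg 3)
  nJ : ∀ v : V, v 3 = 0 → ∀ e ∈ EE ξ μ i, cj (ξ v) e ∈ EE ξ μ i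
  card : Nat.card (EE ξ μ i) = 512

theorem EA.xi (E : EA ξ μ i) (c : Cfg b ξ μ i) {v : V} (h : ξ v ∈ EE ξ μ i) : v = 0 := by
  refine c.inj v ?_
  have h4 : ξ v ^ 4 = 1 := by
    rw [show 4 = 2 * 2 from rfl, pow_mul, pow_two (ξ v)]
    rcases E.sq _ h with e | e <;> rw [e]
    · exact one_pow 2
    · rw [pow_two, c.t2]
  rw [pow_succ, c.cube, one_mul] at h4
  exact h4

theorem EA.triv (E : EA ξ μ i) (c : Cfg b ξ μ i) {v : V} {a : SP} (hv : v 3 = 0) (ha : a.p = 1) :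
    ξ v * μ a ∈ EE ξ μ i ↔ af v a = 1 := by
  have h0 : (a = 1 ∨ a = sg 3) → μ a ∈ EE ξ μ i := by
    rintro (rfl | rfl)
    · rw [c.one]; exact one_mem _
    · exact E.t
  rw [af_one hv ha]
  refine ⟨fun h => ?_, fun h => by rw [h.1, c.zero, one_mul]; exact h0 h.2⟩
  have k : ∀ a : SP, a.p = 1 → (∀ k : Fin 3, ee k.castSucc - a.act (ee k.castSucc) = 0) →
      a = 1 ∨ a = sg 3 := by decide +kernel
  have h1 := k a ha fun k => E.xi c (by
    have h2 := mul_mem (E.nJ (ee k.castSucc) (by revert k; decide) _ h) (inv_mem h)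
    rw [c.sub, ← c.act' (ok_p ha) v]
    simpa only [cj, mul_assoc, mul_inv_rev, inv_inv] using h2)
  exact ⟨E.xi c ((mul_mem_cancel_right (h0 h1)).1 h), h1⟩

open Classical in
/-- The map onto `S₃ × S₃ × S₃`. -/
noncomputable def ph (ξ : V → G) (μ : SP → G) (i : G) (g : G) : L3 :=
  if h : ∃ p : V × SP, p.1 3 = 0 ∧ p.2.p = 1 ∧ g * (ξ p.1 * μ p.2)⁻¹ ∈ EE ξ μ i then
    af h.choose.1 h.choose.2 else 1

theorem EA.ph_eq (E : EA ξ μ i) (c : Cfg b ξ μ i) {e : G} (he : e ∈ EE ξ μ i) {v : V} {a : SP}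
    (hv : v 3 = 0) (ha : a.p = 1) : ph ξ μ i (e * ξ v * μ a) = af v a := by
  have h : ∃ p : V × SP, p.1 3 = 0 ∧ p.2.p = 1 ∧
      e * ξ v * μ a * (ξ p.1 * μ p.2)⁻¹ ∈ EE ξ μ i :=
    ⟨(v, a), hv, ha, by rwa [mul_assoc e, mul_inv_cancel_right]⟩
  rw [ph, dif_pos h]
  obtain ⟨h1, h2, h3⟩ := h.choose_spec
  generalize h.choose.1 = v' at h1 h3
  generalize h.choose.2 = a' at h2 h3
  have h4 : (a * a'⁻¹).p = 1 := by rw [SP.mul_p, SP.inv_p, ha, h2, inv_one, mul_one]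
  have h5 := c.nf_mul (ok_p h4) (ok_p h2) (v - (a * a'⁻¹).act v') v'
  have h6 := af_mul (v - (a * a'⁻¹).act v') v' a' h4
  rw [sub_add_cancel, inv_mul_cancel_right] at h5 h6
  rw [h6, (E.triv c (by rw [Pi.sub_apply, hv, act_three h4 h1, sub_zero]) h4).1, one_mul]
  rw [mul_assoc e, mul_assoc e, mul_mem_cancel_left he, ← h5, mul_inv_cancel_right] at h3
  exact h3

theorem EA.loc (E : EA ξ μ i) (c : Cfg b ξ μ i) {N : Subgroup G} (A : Amb b ξ μ i N)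
    (hC : ∀ g ∈ N, Commute g (μ (sg 3)) → ∃ e ∈ EE ξ μ i, ∃ v a, a.p = 1 ∧ g = e * ξ v * μ a) :
    Loc (⟨μ (sg 3), EE_le A E.t⟩ : N) ((EE ξ μ i).subgroupOf N) fun g => ph ξ μ i g := by
  have nf : ∀ g : N, g * ⟨μ (sg 3), EE_le A E.t⟩ = ⟨μ (sg 3), EE_le A E.t⟩ * g →
      ∃ e ∈ EE ξ μ i, ∃ v a, v 3 = 0 ∧ a.p = 1 ∧ (g : G) = e * ξ v * μ a := fun g hg => by
    have h1 : Commute (g : G) (μ (sg 3)) := congrArg Subtype.val hg
    obtain ⟨e, he, v, a, ha, h2⟩ := hC g g.2 h1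
    refine ⟨e, he, v, a, (c.nf_t (ok_p ha) ?_).1, ha, h2⟩
    have := (E.cen e he).inv_left.mul_left h1
    rwa [h2, mul_assoc e, inv_mul_cancel_left] at this
  refine ⟨E.t, Subtype.ext c.t2, fun e => c.t1 (congrArg Subtype.val e),
    fun q hq => Subtype.ext (E.cen q hq), fun p hp q hq => ?_, fun q hq h => ?_, ?_,
    fun g g' hg hg' => ?_, fun g hg => ?_, fun l => ?_⟩
  · refine (E.com p hp q hq).imp Subtype.ext fun e => Subtype.ext ?_
    exact e.trans (E.cen _ (mul_mem hq hp)).eq.symm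
  · exact (E.zen q hq fun f hf => congrArg Subtype.val (h ⟨f, EE_le A hf⟩ hf)).imp
      Subtype.ext Subtype.ext
  · rw [Nat.card_congr (subgroupOfEquivOfLe (EE_le A)).toEquiv, E.card]
  · obtain ⟨e, he, v, a, hv, ha, h1⟩ := nf g hg
    obtain ⟨e', he', v', a', hv', ha', h2⟩ := nf g' hg'
    have h3 : ((g * g' : N) : G) = e * cj (ξ v) (cj (μ a) e') * ξ (v + a.act v') * μ (a * a') := by
      rw [mul_assoc (e * _), ← c.nf_mul (ok_p ha) (ok_p ha'), coe_mul, h1, h2]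
      simp only [cj, mul_assoc, inv_mul_cancel_left]
    rw [h3, h1, h2, E.ph_eq c he hv ha, E.ph_eq c he' hv' ha', E.ph_eq c
      (mul_mem he (E.nJ v hv _ (nM c ha he'))) (by rw [Pi.add_apply, hv, act_three ha hv', add_zero])
      (by rw [SP.mul_p, ha, ha', mul_one]), af_mul _ _ _ ha]
  · obtain ⟨e, he, v, a, hv, ha, h1⟩ := nf g hg
    simp only [mem_subgroupOf]
    rw [h1, E.ph_eq c he hv ha, mul_assoc, mul_mem_cancel_left he, E.triv c hv ha]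
  · obtain ⟨v, a, hv, ha, rfl⟩ := af_surj l
    refine ⟨⟨ξ v * μ a, mul_mem (A.J v) ((A.mu a (ok_p ha)).2 (v4_of ha))⟩, Subtype.ext ?_, ?_⟩
    · have k1 : ∀ a : SP, a.p = 1 → a * sg 3 = sg 3 * a := by decide +kernel
      have k2 : ∀ v : V, v 3 = 0 → (sg 3).act v = v := by decide +kernel
      exact ((c.mxcomm (ok_p rfl) (k2 v hv)).symm.mul_left
        (c.mcomm (ok_p ha) (ok_p rfl) (k1 a ha))).eq
    · simpa only [one_mul] using E.ph_eq c (one_mem _) hv ha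

theorem EA.iso [Finite G] (E : EA ξ μ i) (c : Cfg b ξ μ i) {N : Subgroup G} (A : Amb b ξ μ i N)
    (hC : ∀ g ∈ N, Commute g (μ (sg 3)) → ∃ e ∈ EE ξ μ i, ∃ v a, a.p = 1 ∧ g = e * ξ v * μ a) :
    Nonempty (N ≃* Cfsg.Omega (ZMod 2) (Cfsg.quadFormPlus 4 (ZMod 2))) := by
  have h := E.loc c A hC
  by_cases w : ∀ q ∈ (EE ξ μ i).subgroupOf N, H7.Asch.Cj (⟨μ (sg 3), EE_le A E.t⟩ : N) q →
      q = ⟨μ (sg 3), EE_le A E.t⟩
  · let σ : SP := ⟨fun _ => false, Equiv.swap 0 3 * Equiv.swap 1 2⟩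
    have h1 : σ.v4 ∧ σ * sg 3 * σ⁻¹ = sg 0 ∧ sg 3 * sg 0 = sg 0 * sg 3 ∧ sg 0 ≠ sg 3 := by
      decide +kernel
    have h2 := c.mcj (ok_ev h1.1.1) (ok_p (a := sg 3) rfl)
    rw [h1.2.1] at h2
    have h3 := h.isolated w ⟨μ σ, (A.mu σ (ok_ev h1.1.1)).2 h1.1⟩ (Subtype.ext (by
      change μ (sg 3) * cj (μ σ) (μ (sg 3)) = cj (μ σ) (μ (sg 3)) * μ (sg 3)
      rw [h2]
      exact c.mcomm (ok_p rfl) (ok_p rfl) h1.2.2.1))
    exact absurd (c.mu_inj (ok_p rfl) (ok_p rfl) (h2.symm.trans (congrArg Subtype.val h3)))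
      h1.2.2.2
  push Not at w
  obtain ⟨_, hq, ⟨x, rfl⟩, hne⟩ := w
  obtain ⟨_, h1⟩ := (h.np (h.conj x) hq hne).std
  obtain ⟨_, _, _, _, _, _, h2⟩ := h1.exists_Ex
  obtain ⟨_, h3⟩ := h2.top
  exact h3.iso

end Cfsg.Agent.H6.O8x
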