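import Cfsg.Agent.H6.DegChar

/-! Character degrees of groups with the local structure of `U₃(3)`. -/

set_option autoImplicit false
set_option linter.unusedSectionVars false

namespace Cfsg.Agent.H6

open Cfsg H3
open scoped ComplexConjugate

variable {G : Type*} [Group G] [Fintype G]

theorem conj_hom (f : G →* ℂ) (g : G) : conj (f g) = f g⁻¹ :=
  (char_inv (irr_isCharacter (isIrrCharacter_hom f)) g).symm

theorem arith21 : ∀ n < 29, n ∣ 6048 → n ≠ 1 → 28 - n ∣ 6048 → 28 - n ≠ 1 → n % 2 = 1 →
    n = 21 ∨ 28 - n = 21 := by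
  intro n hn
  interval_cases n <;> decide

theorem arith6 : ∀ n < 27, n ∣ 6048 → 26 - n ∣ 6048 → 6 ∣ n ∨ 6 ∣ 26 - n := by
  intro n hn
  interval_cases n <;> decide

theorem arith6' (n : ℕ) (h : n ∣ 6048) : n + 26 ∣ 6048 → 3 ≤ n → 6 ∣ n ∨ 6 ∣ n + 26 := by
  have h1 : n ∈ Nat.divisors 6048 := by simp [h]
  have : ∀ n ∈ Nat.divisors 6048, n + 26 ∣ 6048 → 3 ≤ n → 6 ∣ n ∨ 6 ∣ n + 26 := by decide +kernel
  exact this n h1

theorem exists_inj_hom_complex (A : Type*) [Group A] [Finite A] [IsCyclic A] :
    ∃ l : A →* ℂ, Function.Injective l := by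
  have : NeZero (Nat.card A) := ⟨Nat.card_pos.ne'⟩
  have e : A ≃* rootsOfUnity (Nat.card A) ℂ := mulEquivOfCyclicCardEq
    (by rw [Complex.card_rootsOfUnity])
  exact ⟨(Units.coeHom ℂ).comp ((Subgroup.subtype _).comp e.toMonoidHom),
    Units.val_injective.comp (Subtype.val_injective.comp e.injective)⟩

/-- the hypotheses on the Borel subgroup of `U₃(3)`. -/
structure U3Borel (B : Subgroup G) {C : Type*} [CommGroup C] (ε : B →* C) : Prop where
  cardG : Nat.card G = 6048
  cardB : Nat.card B = 216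
  uniq : ∀ x ∉ B, ∀ c, ∃! b : B, x⁻¹ * b * x ∈ B ∧ ε b = c
  tw : ∀ x ∉ B, ∀ (b : B) (h : x⁻¹ * b * x ∈ B), ε ⟨_, h⟩ = (ε b ^ 3)⁻¹

namespace U3Borel

variable {B : Subgroup G} {C : Type*} [CommGroup C] [Fintype C] {ε : B →* C} (h : U3Borel B ε)
include h

theorem index : B.index = 28 := by
  have := B.card_mul_index
  rw [h.cardG, h.cardB] at this
  omega

theorem ext_conj (θ : C →* ℂ) {x : G} (hx : x ∈ B) (b : B) :
    extendByZero B (θ.comp ε) (x⁻¹ * b * x) = θ (ε b) := by
  have : x⁻¹ * b * x = ((⟨x, hx⟩⁻¹ * b * ⟨x, hx⟩ : B) : G) := rfl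
  rw [this, extendByZero_coe, MonoidHom.comp_apply, map_mul ε, map_mul ε, map_inv ε,
    inv_mul_cancel_comm]

theorem norm_ind (θ : C →* ℂ) :
    classInner (indFun B (θ.comp ε)) (indFun B (θ.comp ε)) = 1 + 8⁻¹ * ∑ c, θ c ^ 4 := by
  classical
  rw [classInner_indFun B _ (indFun_isClassFunction B _), classInner]
  have key : ∀ x : G, ∑ b : B, (θ.comp ε) b * conj (extendByZero B (θ.comp ε) (x⁻¹ * b * x)) =
      if x ∈ B then 216 else ∑ c, θ c ^ 4 := by
    intro x
    split_ifs with hx
    · simp only [h.ext_conj θ hx, conj_hom, MonoidHom.comp_apply, ← map_mul, mul_inv_cancel,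
        map_one, Finset.sum_const, Finset.card_univ, ← Nat.card_eq_fintype_card, h.cardB]
      simp
    · choose s hs hs' using h.uniq x hx
      symm
      refine Finset.sum_of_injOn s (fun c _ d _ e => by rw [← (hs c).2, e, (hs d).2])
        (by simp) (fun b _ hb => ?_) (fun c _ => ?_)
      · rw [extendByZero_of_notMem B _ (fun hb' => hb ⟨ε b, by simp, (hs' _ b ⟨hb', rfl⟩).symm⟩)]
        simp
      · rw [extendByZero_of_mem B _ (hs c).1, MonoidHom.comp_apply, MonoidHom.comp_apply,
          h.tw x hx, (hs c).2, conj_hom, inv_inv, map_pow]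
        ring
  simp only [indFun, map_mul, map_sum, Finset.mul_sum, mul_left_comm ((θ.comp ε) _)]
  rw [Finset.sum_comm]
  simp only [← Finset.mul_sum, key]
  rw [Finset.sum_ite, Finset.sum_const, Finset.sum_const, ← Fintype.card_subtype,
    ← Fintype.card_subtype, Fintype.card_subtype_compl, ← Nat.card_eq_fintype_card,
    ← Nat.card_eq_fintype_card, h.cardG, h.cardB]
  simp only [map_inv₀, map_natCast, nsmul_eq_mul]
  norm_num
  ring

theorem ind_one (θ : C →* ℂ) : indFun B (θ.comp ε) 1 = 28 := by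
  simp [indFun_one, h.index]

theorem ind_unip (θ : C →* ℂ) (u : B) (hu : ε u = 1) (hu1 : u ≠ 1) :
    indFun B (θ.comp ε) u = 1 := by
  classical
  have key : ∀ x : G, extendByZero B (θ.comp ε) (x⁻¹ * u * x) = if x ∈ B then 1 else 0 := by
    intro x
    split_ifs with hx
    · rw [h.ext_conj θ hx, hu, map_one]
    · exact extendByZero_of_notMem B _ fun hb => hu1
        ((h.uniq x hx 1).unique ⟨hb, hu⟩ ⟨by simp, map_one _⟩)
  simp only [indFun, key, Finset.sum_boole]
  rw [← Fintype.card_subtype, ← Nat.card_eq_fintype_card]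
  exact inv_mul_cancel₀ card_ne_zero'

theorem deg28 (θ : C →* ℂ) (hθ : θ ^ 4 ≠ 1) : 28 ∈ charDegrees G := by
  refine mem_charDegrees.mpr ⟨_, (irr_iff_norm_one (isCharacter_indFun B (irr_isCharacter
    (isIrrCharacter_hom (θ.comp ε))))).mpr ?_, h.ind_one θ⟩
  have := classInner_hom (θ ^ 4) 1
  rw [if_neg hθ, classInner, mul_eq_zero] at this
  rw [h.norm_ind, show ∑ c, θ c ^ 4 = 0 by simpa using this.resolve_left (by simp)]
  simp

theorem norm_two (hC : Fintype.card C = 8) (θ : C →* ℂ) (hθ : ∀ c, θ c ^ 4 = 1) :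
    classInner (indFun B (θ.comp ε)) (indFun B (θ.comp ε)) = 2 := by
  rw [h.norm_ind]
  simp [hθ, hC]
  norm_num

theorem steinberg (hC : Fintype.card C = 8) : ∃ St, IsIrrCharacter G St ∧ St 1 = 27 ∧
    ∀ g : G, orderOf g = 7 → St g = -1 := by
  classical
  have h1 : classInner (indFun B ((1 : C →* ℂ).comp ε)) 1 = 1 := by
    rw [classInner_indFun B _ (char_isClassFunction isCharacter_one)]
    exact classInner_one_one
  have h2 : classInner 1 (indFun B ((1 : C →* ℂ).comp ε)) = 1 := by
    rw [← conj_classInner, h1, map_one]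
  refine ⟨indFun B ((1 : C →* ℂ).comp ε) - 1, (irr_iff_norm_one
    (isCharacter_sub_of_classInner_ne_zero (isCharacter_indFun B (irr_isCharacter
    (isIrrCharacter_hom _))) isIrrCharacter_one' (by rw [h1]; simp))).mpr ?_, ?_, fun g hg => ?_⟩
  · simp only [classInner_sub_left, classInner_sub_right, h1, h2, classInner_one_one,
      h.norm_two hC 1 (by simp)]
    norm_num
  · rw [Pi.sub_apply, h.ind_one]; norm_num
  · rw [Pi.sub_apply, indFun_eq_zero B _ fun x hx => ?_]
    · simp
    · have := Subgroup.orderOf_dvd_natCard B hx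
      rw [h.cardB, show x⁻¹ * g * x = MulAut.conj x⁻¹ g by simp, MulEquiv.orderOf_eq, hg] at this
      norm_num at this

theorem deg21 (hC : Fintype.card C = 8) (hU : Nat.card ε.ker = 27)
    (hreal : ∀ u : B, ε u = 1 → IsConj (u : G) u⁻¹) (θ : C →* ℂ) (hθ : ∀ c, θ c ^ 4 = 1)
    {x y : G} (hxy : x * y * x⁻¹ * y⁻¹ ∈ B) (hθ' : θ (ε ⟨_, hxy⟩) ≠ 1) : 21 ∈ charDegrees G := by
  classical
  have hc := isCharacter_indFun B (irr_isCharacter (isIrrCharacter_hom (θ.comp ε)))
  obtain ⟨a, b, s, t, ha, hb, hs, ht, hs', ht', e⟩ :=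
    exists_of_norm_two (genChar_of_char hc) (h.norm_two hC θ hθ)
  have pos : ∀ (a : G → ℂ) (s : ℤ), IsIrrCharacter G a → (s = 1 ∨ s = -1) →
      classInner (indFun B (θ.comp ε)) a = s → s = 1 := fun a s ha hs hs' => by
    obtain ⟨n, hn⟩ := classInner_char_nat hc (irr_isCharacter ha)
    have : (n : ℤ) = s := by exact_mod_cast hn.symm.trans hs'
    omega
  obtain rfl := pos a s ha hs hs'
  obtain rfl := pos b t hb ht ht'
  simp only [Int.cast_one, one_smul] at hs' ht' e
  have res : ∀ a : G → ℂ, IsIrrCharacter G a → classInner (indFun B (θ.comp ε)) a = 1 →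
      classInner (fun b : B => a b) (θ.comp ε) ≠ 0 := fun a ha h1 => by
    rw [← classInner_indFun_right B _ (char_isClassFunction (irr_isCharacter ha)),
      ← conj_classInner, h1]
    simp
  have ge : ∀ a : G → ℂ, IsIrrCharacter G a → classInner (indFun B (θ.comp ε)) a = 1 →
      ∃ m : ℕ, ∑ u : ε.ker, a u = 27 * (m + 1) := fun a ha h1 => by
    have h2 := isCharacter_res ε.ker (isCharacter_sub_of_classInner_ne_zero
      (isCharacter_res B (irr_isCharacter ha)) (isIrrCharacter_hom _) (res a ha h1))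
    obtain ⟨m, hm⟩ := classInner_char_nat h2 isCharacter_one
    have h3 := card_mul_classInner (fun u : ε.ker => ((fun b : B => a b) - θ.comp ε) u) 1
    have h4 : ∀ u : ε.ker, ε u = 1 := fun u => u.2
    rw [hm] at h3
    simp only [hU, Pi.sub_apply, MonoidHom.coe_comp, Function.comp_apply, h4, map_one,
      Pi.one_apply, mul_one, Finset.sum_sub_distrib, Finset.sum_const, Finset.card_univ,
      ← Nat.card_eq_fintype_card] at h3
    exact ⟨m, by simp at h3; linear_combination -h3⟩
  have tot : ∑ u : ε.ker, a u + ∑ u : ε.ker, b u = 54 := by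
    rw [← Finset.sum_add_distrib]
    have : ∀ u : ε.ker, a u + b u = 1 + if u = 1 then 27 else 0 := fun u => by
      rw [← Pi.add_apply a b, ← e]
      split_ifs with hu
      · rw [hu]; exact (h.ind_one θ).trans (by norm_num)
      · rw [h.ind_unip θ u u.2 (by simpa using hu), add_zero]
    simp only [this, Finset.sum_add_distrib, Finset.sum_const, Finset.card_univ,
      ← Nat.card_eq_fintype_card, hU]
    norm_num
  obtain ⟨m, hm⟩ := ge a ha hs'
  obtain ⟨m', hm'⟩ := ge b hb ht'
  have hmm : m + m' = 0 := by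
    have : ((m + m' : ℕ) : ℂ) = 0 := by push_cast; linear_combination (tot - hm - hm') / 27
    exact_mod_cast this
  obtain rfl : m = 0 := by omega
  obtain ⟨n, -, hn⟩ := irr_one_pos ha
  obtain ⟨n', -, hn'⟩ := irr_one_pos hb
  have odd : (2 : ℤ) ∣ 27 - n := by
    let f : ε.ker → integralClosure ℤ ℂ := fun u => ⟨a u, char_isIntegral (irr_isCharacter ha) _⟩
    have h1 : ∑ u ∈ Finset.univ.erase 1, Ideal.Quotient.mk (Ideal.span {2}) (f u) = 0 := by
      refine Finset.sum_involution (fun u _ => u⁻¹) (fun u _ => ?_) (fun u hu _ hu' => ?_)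
        (fun u hu => by simpa using hu) (fun u _ => inv_inv u)
      · have : f u⁻¹ = f u := Subtype.ext (isClassFunction_isConj
          (char_isClassFunction (irr_isCharacter ha)) (hreal u u.2)).symm
        rw [this, ← map_add, ← two_mul, Ideal.Quotient.eq_zero_iff_mem]
        exact Ideal.mul_mem_right _ _ (Ideal.mem_span_singleton_self _)
      · have h2 : orderOf u ∣ Nat.gcd 2 27 := Nat.dvd_gcd
          (orderOf_dvd_of_pow_eq_one (by rw [pow_two]; nth_rewrite 1 [← hu']; simp))
          (hU ▸ orderOf_dvd_natCard u)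
        simp_all
    rw [← map_sum, Ideal.Quotient.eq_zero_iff_mem, Ideal.mem_span_singleton'] at h1
    obtain ⟨w, hw⟩ := h1
    have h2 : (w : ℂ) * 2 = ∑ u ∈ Finset.univ.erase (1 : ε.ker), a u := by
      have := congrArg Subtype.val hw
      rw [AddSubmonoidClass.coe_finsetSum] at this
      exact this
    rw [Finset.sum_erase_eq_sub (Finset.mem_univ _), hm] at h2
    apply int_dvd_of_isIntegral_div (by norm_num)
    have h3 : IsIntegral ℤ (w : ℂ) := w.2
    convert h3 using 1
    simp only [OneMemClass.coe_one, hn] at h2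
    push_cast at h2 ⊢
    linear_combination -h2 / 2
  have ne : ∀ a : G → ℂ, IsIrrCharacter G a → classInner (indFun B (θ.comp ε)) a = 1 →
      a 1 ≠ 1 := fun a ha h1 h2 => by
    let f := charHom (irr_isCharacter ha) h2
    have h3 := res a ha h1
    rw [show (fun b : B => a b) = f.comp B.subtype from rfl, classInner_hom] at h3
    have h4 : f.comp B.subtype = θ.comp ε := by simpa using h3
    apply hθ'
    rw [← MonoidHom.comp_apply, ← h4]
    show f (x * y * x⁻¹ * y⁻¹) = 1
    simp only [map_mul]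
    rw [mul_right_comm (f x), mul_assoc, ← map_mul, ← map_mul]
    simp
  have h1 : n + n' = 28 := by
    have := h.ind_one θ
    rw [e, Pi.add_apply, hn, hn'] at this
    exact_mod_cast this
  have h2 := h.cardG ▸ irr_degree_dvd_card ha hn
  have h3 := h.cardG ▸ irr_degree_dvd_card hb hn'
  have h4 : n ≠ 1 := fun h => ne a ha hs' (by simp [hn, h])
  have h5 : n' ≠ 1 := fun h => ne b hb ht' (by simp [hn', h])
  have : n = 21 ∨ n' = 21 := by
    obtain rfl : n' = 28 - n := by omega
    have h6 : n % 2 = 1 := by omega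
    exact arith21 n (by omega) h2 h4 h3 h5 h6
  rcases this with rfl | rfl
  · exact mem_charDegrees.mpr ⟨a, ha, hn⟩
  · exact mem_charDegrees.mpr ⟨b, hb, hn'⟩

end U3Borel

theorem card_centralizer_seven (hG : Nat.card G = 6048)
    (hs : ∀ g : G, orderOf g ∣ 7 ∨ orderOf g ∣ 8 ∨ orderOf g ∣ 12) {a : G} (ha : orderOf a = 7) :
    Nat.card (Subgroup.centralizer ({a} : Set G)) = 7 := by
  have key : ∀ p : ℕ, p.Prime → p ≠ 7 → Nat.Coprime (Nat.card (Subgroup.centralizer ({a} : Set G))) p
      := fun p hp h7 => by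
    rw [Nat.coprime_comm, hp.coprime_iff_not_dvd]
    intro hd
    have := Fact.mk hp
    obtain ⟨z, hz⟩ := exists_prime_orderOf_dvd_card' p hd
    have h1 : Commute a z := (Subgroup.mem_centralizer_singleton_iff.mp z.2).symm
    have h2 := h1.orderOf_mul_eq_mul_orderOf_of_coprime (by
      rw [Subgroup.orderOf_coe, ha, hz]
      exact (Nat.coprime_primes (by norm_num) hp).mpr h7.symm)
    rw [Subgroup.orderOf_coe, ha, hz] at h2
    have := hp.two_le
    rcases hs (a * z) with h | h | h <;> rw [h2] at h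
    · have := Nat.le_of_dvd (by norm_num) h; omega
    · exact absurd ((Dvd.intro _ rfl).trans h) (by norm_num)
    · exact absurd ((Dvd.intro _ rfl).trans h) (by norm_num)
  have h1 := Subgroup.card_subgroup_dvd_card (Subgroup.centralizer ({a} : Set G))
  rw [hG, show 6048 = 2 ^ 5 * (3 ^ 3 * 7) by rfl] at h1
  refine Nat.dvd_antisymm (((key 3 (by norm_num) (by norm_num)).pow_right 3).dvd_of_dvd_mul_left
    (((key 2 (by norm_num) (by norm_num)).pow_right 5).dvd_of_dvd_mul_left h1)) ?_
  exact ha ▸ Subgroup.orderOf_dvd_natCard _ (Subgroup.mem_centralizer_singleton_iff.mpr rfl)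

theorem exists_deg6 (hG : Nat.card G = 6048)
    (hs : ∀ g : G, orderOf g ∣ 7 ∨ orderOf g ∣ 8 ∨ orderOf g ∣ 12) {x y : G} (hx : orderOf x = 7)
    (hy : y * x * y⁻¹ = x ^ 2) (hx' : ¬ IsConj x x⁻¹) {St : G → ℂ} (hSt : IsIrrCharacter G St)
    (hSt1 : St 1 = 27) (hSt7 : ∀ g : G, orderOf g = 7 → St g = -1) :
    ∃ d ∈ charDegrees G, 6 ∣ d := by
  classical
  have := Fact.mk (show Nat.Prime 7 by norm_num)
  set A := Subgroup.zpowers x with hA
  have hA7 : Nat.card A = 7 := by rw [hA, Nat.card_zpowers, hx]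
  have ho : ∀ a : A, a ≠ 1 → orderOf a = 7 := fun a ha => orderOf_eq_prime
    (by rw [← hA7, pow_card_eq_one']) ha
  have c2 : ∀ a : A, IsConj (a : G) ((a ^ 2 : A) : G) := by
    rintro ⟨_, k, rfl⟩
    refine isConj_iff.mpr ⟨y, ?_⟩
    simp only [← conj_zpow, hy, SubgroupClass.coe_pow]
    group
  have c4 : ∀ a : A, IsConj (a : G) ((a ^ 4 : A) : G) := fun a => by
    simpa [← pow_mul] using (c2 a).trans (c2 (a ^ 2))
  have gen : ∀ a b : A, a ≠ 1 → ∃ j < 7, b = a ^ j := fun a b ha => by
    have h1 : b ∈ Subgroup.zpowers a := by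
      rw [zpowers_eq_top_of_prime_card hA7 ha]; trivial
    obtain ⟨j, hj, e⟩ := Finset.mem_image.mp (mem_zpowers_iff_mem_range_orderOf.mp h1)
    exact ⟨j, by simpa [ho a ha] using hj, e.symm⟩
  have ninv : ∀ a : A, a ≠ 1 → ¬ IsConj (a : G) ((a ^ 6 : A) : G) := fun a ha h => by
    obtain ⟨j, -, hj⟩ := gen a ⟨x, Subgroup.mem_zpowers x⟩ ha
    have e : x = (a : G) ^ j := congrArg Subtype.val hj
    have e6 : a ^ 6 = a⁻¹ := eq_inv_of_mul_eq_one_left (by
      rw [← pow_succ, show 6 + 1 = Nat.card A from hA7.symm, pow_card_eq_one'])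
    apply hx'
    have := h.pow j
    rwa [e6, Subgroup.coe_inv, inv_pow, ← e] at this
  have fus : ∀ a b : A, a ≠ 1 → (IsConj (a : G) b ↔ b = a ∨ b = a ^ 2 ∨ b = a ^ 4) := by
    intro a b ha
    constructor
    · intro h
      obtain ⟨j, hj, rfl⟩ := gen a b ha
      have e7 : a ^ 7 = 1 := by rw [← hA7, pow_card_eq_one']
      interval_cases j
      · exact absurd (by simpa using h) ha
      · simp
      · simp
      · exact absurd (by simpa [← pow_mul] using h.trans (c2 (a ^ 3))) (ninv a ha)
      · simp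
      · refine absurd (h.trans ?_) (ninv a ha)
        have := c4 (a ^ 5)
        rwa [← pow_mul, show 5 * 4 = 7 * 2 + 6 by rfl, pow_add, pow_mul, e7, one_pow,
          one_mul] at this
      · exact absurd h (ninv a ha)
    · rintro (rfl | rfl | rfl)
      exacts [IsConj.refl _, c2 a, c4 a]
  have := isCyclic_of_prime_card hA7
  obtain ⟨l, hl⟩ := exists_inj_hom_complex A
  have hne : ∀ i j : ℕ, ¬ i ≡ j [MOD 7] → l ^ i ≠ l ^ j := fun i j hij h => by
    have h1 : (⟨x, Subgroup.mem_zpowers x⟩ : A) ≠ 1 := fun h => by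
      rw [show x = 1 from congrArg Subtype.val h] at hx
      simp at hx
    apply hij
    rw [← ho _ h1, ← pow_eq_pow_iff_modEq]
    apply hl
    rw [map_pow, map_pow]
    exact DFunLike.congr_fun h _
  have hin : ∀ i j : ℕ, ¬ i ≡ j [MOD 7] → classInner ((l ^ i : A →* ℂ) : A → ℂ) (l ^ j : A →* ℂ) = 0
      := fun i j hij => by rw [classInner_hom, if_neg (hne i j hij)]
  have hir : ∀ i : ℕ, IsIrrCharacter A (l ^ i : A →* ℂ) := fun i => isIrrCharacter_hom _
  let φ : A → ℂ := (l ^ 0 : A →* ℂ) - (l ^ 1 : A →* ℂ)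
  have hφ : IsGeneralizedCharacter G (indFun A φ) :=
    genChar_indFun A (genChar_sub (genChar_of_irr (hir 0)) (genChar_of_irr (hir 1)))
  have hφ1 : indFun A φ 1 = 0 := by simp [indFun_one, φ]
  have hres : (fun a : A => indFun A φ a) = (3 : ℂ) • ((l ^ 0 : A →* ℂ) : A → ℂ) -
      (l ^ 1 : A →* ℂ) - (l ^ 2 : A →* ℂ) - (l ^ 4 : A →* ℂ) := by
    ext a
    by_cases ha : a = 1
    · rw [ha, OneMemClass.coe_one, hφ1]; simp; norm_num
    have h1 := sum_conj_eq (a : G) (extendByZero A φ)
    rw [card_centralizer_seven hG hs (by rw [Subgroup.orderOf_coe, ho a ha]), Finset.sum_filter]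
      at h1
    have h2 := sum_extendByZero_mul A φ (fun g => if IsConj (a : G) g then 1 else 0)
    simp only [mul_ite, mul_one, mul_zero, fus a _ ha] at h2
    have h3 : ∀ i j : ℕ, ¬ i ≡ j [MOD 7] → a ^ i ≠ a ^ j := fun i j hij h =>
      hij (by rwa [← ho a ha, ← pow_eq_pow_iff_modEq])
    have h4 : Finset.univ.filter (fun b : A => b = a ∨ b = a ^ 2 ∨ b = a ^ 4) = {a ^ 1, a ^ 2, a ^ 4}
      := by ext; simp
    rw [← Finset.sum_filter (s := (Finset.univ : Finset A)), h4,
      Finset.sum_insert (by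
        simp only [Finset.mem_insert, Finset.mem_singleton, not_or]
        exact ⟨h3 1 2 (by decide), h3 1 4 (by decide)⟩),
      Finset.sum_pair (h3 2 4 (by decide))] at h2
    rw [indFun, ← Equiv.sum_comp (Equiv.inv G)]
    simp only [Equiv.inv_apply, inv_inv, h1, h2, hA7]
    simp [φ]
    ring
  have n4 : classInner (indFun A φ) (indFun A φ) = 4 := by
    rw [classInner_indFun_right A _ (indFun_isClassFunction A _), hres]
    simp (disch := decide) only [φ, classInner_sub_left, classInner_sub_right, classInner_smul_left,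
      classInner_irr_self (hir _), hin]
    norm_num
  have n1 : classInner 1 (indFun A φ) = 1 := by
    rw [classInner_indFun_right A _ (char_isClassFunction isCharacter_one)]
    rw [show (fun h : A => (1 : G → ℂ) h) = (l ^ 0 : A →* ℂ) by ext; simp]
    simp (disch := decide) only [φ, classInner_sub_right, classInner_irr_self (hir _), hin, sub_zero]
  have nS : classInner St (indFun A φ) = -1 := by
    rw [← n1, ← classInner_neg_left,
      classInner_indFun_right A _ (char_isClassFunction (irr_isCharacter hSt)),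
      classInner_indFun_right A _ (fun _ _ => rfl), classInner, classInner]
    congr 1
    refine Finset.sum_congr rfl fun a _ => ?_
    by_cases ha : a = 1
    · simp [ha, φ]
    · rw [hSt7 _ (by rw [Subgroup.orderOf_coe, ho a ha])]; rfl
  have n1' : classInner (indFun A φ) 1 = 1 := by rw [← conj_classInner, n1, map_one]
  have nS' : classInner (indFun A φ) St = -1 := by rw [← conj_classInner, nS]; simp
  have hS1 : St ≠ 1 := fun h => by rw [h] at hSt1; norm_num at hSt1
  have o1 := classInner_irr_ne hSt isIrrCharacter_one' hS1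
  have o2 := classInner_irr_ne isIrrCharacter_one' hSt hS1.symm
  obtain ⟨a, b, s, t, ha, hb, hs, ht, hs', ht', e⟩ := exists_of_norm_two
    (genChar_add (genChar_sub hφ (genChar_of_irr isIrrCharacter_one')) (genChar_of_irr hSt)) (by
      simp only [classInner_add_left, classInner_add_right, classInner_sub_left,
        classInner_sub_right, n4, n1, nS, n1', nS', o1, o2, classInner_one_one,
        classInner_irr_self hSt]
      norm_num)
  have three : ∀ (a : G → ℂ) (n : ℕ), IsIrrCharacter G a → a 1 = n →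
      classInner (indFun A φ - 1 + St) a = ((-1 : ℤ) : ℂ) → 3 ≤ n := fun a n ha hn h => by
    have hc := irr_isCharacter ha
    have h1 : a ≠ 1 := by
      rintro rfl
      norm_num [classInner_add_left, classInner_sub_left, n1', o1, classInner_one_one] at h
    have h2 : a ≠ St := by
      rintro rfl
      norm_num [classInner_add_left, classInner_sub_left, nS', o2, classInner_irr_self ha] at h
    rw [classInner_add_left, classInner_sub_left, classInner_irr_ne isIrrCharacter_one' ha h1.symm,
      classInner_irr_ne hSt ha h2.symm,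
      classInner_indFun A _ (char_isClassFunction hc), classInner_sub_left] at h
    obtain ⟨m, hm⟩ := classInner_char_nat (irr_isCharacter (hir 0)) (isCharacter_res A hc)
    have h3 : classInner (fun b : A => a b) (l ^ 1 : A →* ℂ) ≠ 0 := by
      rw [classInner_char_comm (isCharacter_res A hc) (irr_isCharacter (hir 1))]
      intro h0
      rw [hm, h0] at h
      have : ((m + 1 : ℕ) : ℂ) = 0 := by push_cast at h ⊢; linear_combination h
      exact Nat.succ_ne_zero m (by exact_mod_cast this)
    have sq : ∀ i, classInner (fun b : A => a b) (l ^ (2 * i) : A →* ℂ) =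
        classInner (fun b : A => a b) (l ^ i : A →* ℂ) := fun i => by
      symm
      rw [classInner, classInner, ← Equiv.sum_comp (powCoprime (n := 2) (by rw [hA7]; decide))]
      congr 1
      refine Finset.sum_congr rfl fun b _ => ?_
      rw [isClassFunction_isConj (char_isClassFunction hc) (c2 b)]
      simp [pow_mul]
    have h4 := isCharacter_sub_of_classInner_ne_zero (isCharacter_res A hc) (hir 1) h3
    have h5 := isCharacter_sub_of_classInner_ne_zero h4 (hir 2) (by
      rwa [classInner_sub_left, hin 1 2 (by decide), sub_zero, sq 1])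
    have h6 := isCharacter_sub_of_classInner_ne_zero h5 (hir 4) (by
      rwa [classInner_sub_left, classInner_sub_left, hin 1 4 (by decide), hin 2 4 (by decide),
        sub_zero, sub_zero, sq 2, sq 1])
    obtain ⟨k, hk⟩ := char_one_nat h6
    have : (n : ℂ) = ((k + 3 : ℕ) : ℂ) := by
      simp [hn] at hk
      push_cast; linear_combination hk
    have : n = k + 3 := by exact_mod_cast this
    omega
  obtain ⟨n, -, hn⟩ := irr_one_pos ha
  obtain ⟨n', -, hn'⟩ := irr_one_pos hb
  have h2 := hG ▸ irr_degree_dvd_card ha hn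
  have h3 := hG ▸ irr_degree_dvd_card hb hn'
  have h1 : s * n + t * n' = 26 := by
    have := congrFun e 1
    simp only [Pi.add_apply, Pi.sub_apply, hφ1, hSt1, Pi.one_apply, Pi.smul_apply, hn, hn',
      smul_eq_mul] at this
    have : ((s * n + t * n' : ℤ) : ℂ) = ((26 : ℤ) : ℂ) := by push_cast; linear_combination -this
    exact_mod_cast this
  suffices 6 ∣ n ∨ 6 ∣ n' from this.elim (fun h => ⟨n, mem_charDegrees.mpr ⟨a, ha, hn⟩, h⟩)
    (fun h => ⟨n', mem_charDegrees.mpr ⟨b, hb, hn'⟩, h⟩)
  rcases hs with rfl | rfl <;> rcases ht with rfl | rfl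
  · obtain rfl : n' = 26 - n := by omega
    exact arith6 n (by omega) h2 h3
  · obtain rfl : n = n' + 26 := by omega
    exact (arith6' n' h3 h2 (three b n' hb hn' ht')).symm
  · obtain rfl : n' = n + 26 := by omega
    exact arith6' n h2 h3 (three a n ha hn hs')
  · omega

end Cfsg.Agent.H6
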