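import Cfsg.Agent.H6.QuadUnip
import Mathlib.LinearAlgebra.Matrix.Charpoly.Coeff
import Mathlib.LinearAlgebra.Dual.Lemmas

/-! The Dickson invariant: parity of the dimension of the fixed space of an isometry in
characteristic two (via the Cartan–Dieudonné argument over an infinite field). -/

set_option autoImplicit false

namespace Cfsg.Agent.H6

open Matrix Module Polynomial

/-- the fixed space of a matrix. -/
def fixS {n K : Type*} [Fintype n] [DecidableEq n] [Field K] (g : Matrix n n K) :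
    Submodule K (n → K) := LinearMap.ker (Matrix.toLin' (g - 1))

theorem mem_fixS {n K : Type*} [Fintype n] [DecidableEq n] [Field K] (g : Matrix n n K)
    (x : n → K) : x ∈ fixS g ↔ g *ᵥ x = x := by
  simp [fixS, sub_mulVec, sub_eq_zero]

theorem finrank_inf_ker {K V : Type*} [Field K] [AddCommGroup V] [Module K V]
    [FiniteDimensional K V] (S : Submodule K V) (f : V →ₗ[K] K) {x : V} (hx : x ∈ S)
    (hf : f x ≠ 0) : finrank K (S ⊓ LinearMap.ker f : Submodule K V) + 1 = finrank K S := by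
  have h1 : f.domRestrict S ≠ 0 := fun h => hf (LinearMap.congr_fun h ⟨x, hx⟩)
  rw [← Module.Dual.finrank_ker_add_one_of_ne_zero h1, LinearMap.ker_domRestrict,
    ← Submodule.finrank_map_subtype_eq, Submodule.map_comap_subtype]

theorem geom_sum_eq_zero {n K : Type*} [Fintype n] [DecidableEq n] [Field K] (g : Matrix n n K)
    (h : finrank K (fixS g) ≠ 1) {N : ℕ} (hN : g.charpoly ∣ X ^ N - 1) :
    ∑ i ∈ Finset.range N, g ^ i = 0 := by
  obtain ⟨c, hc⟩ := hN
  by_cases h0 : finrank K (fixS g) = 0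
  · have h1 := congrArg (aeval g) hc
    rw [map_mul, aeval_self_charpoly, zero_mul, map_sub, map_pow, aeval_X, map_one] at h1
    apply mat_ext_mulVec
    intro x
    have h2 : (∑ i ∈ Finset.range N, g ^ i) *ᵥ x ∈ fixS g := by
      rw [fixS, LinearMap.mem_ker, toLin'_apply, mulVec_mulVec, mul_geom_sum, h1, zero_mulVec]
    rw [Submodule.finrank_eq_zero.mp h0, Submodule.mem_bot] at h2
    rw [h2, zero_mulVec]
  have hadj : (1 - g).adjugate = 0 := by
    ext i j
    rw [adjugate_apply, Matrix.zero_apply, ← Matrix.exists_mulVec_eq_zero_iff]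
    have h3 : fixS g ⊓ LinearMap.ker (LinearMap.proj i : (n → K) →ₗ[K] K) ≠ ⊥ := by
      by_cases h4 : ∃ x ∈ fixS g, x i ≠ 0
      · obtain ⟨x, hx, hx'⟩ := h4
        have := finrank_inf_ker (fixS g) (LinearMap.proj i) hx hx'
        intro h5
        rw [h5, finrank_bot] at this
        omega
      · push Not at h4
        rw [inf_eq_left.mpr (fun x hx => h4 x hx)]
        intro h5
        rw [h5, finrank_bot] at h0
        exact h0 rfl
    obtain ⟨x, ⟨hx, hx'⟩, hx0⟩ := Submodule.exists_mem_ne_zero_of_ne_bot h3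
    refine ⟨x, hx0, ?_⟩
    ext k
    by_cases hk : k = j
    · subst hk
      simpa [mulVec] using hx'
    · have := congrFun ((mem_fixS g x).mp hx) k
      simp only [mulVec, updateRow_ne hk, Pi.zero_apply] at this ⊢
      rw [show (fun j => (1 - g) k j) = (1 : Matrix n n K) k - g k from rfl, sub_dotProduct, this]
      simp [dotProduct, Matrix.one_apply]
  have hdvd : ∀ i j, X - C 1 ∣ (charmatrix g).adjugate i j := by
    intro i j
    rw [dvd_iff_isRoot]
    have h1 := (evalRingHom (1 : K)).map_adjugate (charmatrix g)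
    have h2 : (evalRingHom (1 : K)).mapMatrix (charmatrix g) = 1 - g := by
      ext i j
      by_cases hij : i = j
      · subst hij; simp
      · simp [hij]
    rw [h2, hadj] at h1
    exact congrFun (congrFun h1 i) j
  choose A hA using hdvd
  have h1 : (∑ i ∈ Finset.range N, (X : K[X]) ^ i) • (1 : Matrix n n K[X]) =
      (c • Matrix.of A) * charmatrix g := by
    ext1 i j
    apply mul_left_cancel₀ (X_sub_C_ne_zero (1 : K))
    have h2 := congrFun (congrFun (adjugate_mul (charmatrix g)) i) j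
    simp only [Matrix.mul_apply, hA, Matrix.smul_apply, smul_eq_mul, Matrix.of_apply] at h2 ⊢
    rw [← mul_assoc, map_one, mul_geom_sum, hc, Finset.mul_sum, mul_comm g.charpoly, mul_assoc,
      Matrix.charpoly, ← h2, Finset.mul_sum]
    refine Finset.sum_congr rfl fun k _ => ?_
    rw [map_one]; ring
  apply_fun matPolyEquiv at h1
  simp only [map_mul, matPolyEquiv_charmatrix] at h1
  apply_fun fun p => p.eval g at h1
  rw [eval_mul_X_sub_C, matPolyEquiv_smul_one, eval_map] at h1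
  rw [← h1, ← aeval_def]
  simp

section
variable {l : Type*} [Fintype l] [DecidableEq l] {K : Type*} [Field K]

theorem exists_om_sep (U : Submodule K (l ⊕ l → K)) {a : l ⊕ l → K} (ha : a ∉ U) :
    ∃ y, (∀ u ∈ U, om y u = 0) ∧ om y a ≠ 0 := by
  obtain ⟨f, hf, hf'⟩ := U.exists_dual_map_eq_bot_of_notMem ha inferInstance
  have key : ∀ x, om (Sum.elim (fun i => f (Pi.single (.inr i) 1))
      (fun i => - f (Pi.single (.inl i) 1))) x = f x := by
    intro x
    rw [LinearMap.pi_apply_eq_sum_univ f x, Fintype.sum_sum_type]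
    simp only [om_apply, pr_apply, Sum.elim_inl, Sum.elim_inr, mul_neg, Finset.sum_neg_distrib,
      sub_neg_eq_add, smul_eq_mul]
    rw [add_comm]
    congr 1 <;> refine Finset.sum_congr rfl fun i _ => ?_
    · congr 2; ext j; simp [Pi.single_apply, eq_comm]
    · rw [mul_comm]; congr 2; ext j; simp [Pi.single_apply, eq_comm]
  refine ⟨_, fun u hu => ?_, by rwa [key]⟩
  rw [key, ← Submodule.mem_bot K, ← hf']
  exact Submodule.mem_map_of_mem hu

theorem sp_injective {g : Matrix (l ⊕ l) (l ⊕ l) K} (hg : g ∈ symplecticGroup l K) :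
    Function.Injective g.mulVec :=
  mulVec_injective_of_isUnit ((Matrix.isUnit_iff_isUnit_det g).mpr
    (SymplecticGroup.symplectic_det hg))

theorem sp_surjective {g : Matrix (l ⊕ l) (l ⊕ l) K} (hg : g ∈ symplecticGroup l K) :
    Function.Surjective g.mulVec :=
  mulVec_surjective_iff_isUnit.mpr ((Matrix.isUnit_iff_isUnit_det g).mpr
    (SymplecticGroup.symplectic_det hg))

variable [CharP K 2] {w : l ⊕ l → K} {g : Matrix (l ⊕ l) (l ⊕ l) K}

omit [Fintype l] [DecidableEq l] in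
theorem vec_add_self (x : l ⊕ l → K) : x + x = 0 := by
  ext i; exact CharTwo.add_self_eq_zero _

omit [DecidableEq l] in
theorem Qw_move (hg : Pres w g) (x : l ⊕ l → K) : Qw w (g *ᵥ x + x) = om (g *ᵥ x) x := by
  rw [Qw_add, hg, CharTwo.add_self_eq_zero, zero_add]

theorem rf_move (hg : Pres w g) {x : l ⊕ l → K} (h : Qw w (g *ᵥ x + x) ≠ 0) :
    (rf w (g *ᵥ x + x) * g) *ᵥ x = x := by
  rw [← mulVec_mulVec, rf, tv_mulVec, map_add, om_self, zero_add, ← Qw_move hg,
    inv_mul_cancel₀ h, one_smul, ← add_assoc, vec_add_self, zero_add]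

theorem om_move (hg : Pres w g) (x : l ⊕ l → K) {y : l ⊕ l → K} (hy : g *ᵥ y = y) :
    om y (g *ᵥ x + x) = 0 := by
  have := (mem_sp_iff g).mp hg.mem y x
  rw [hy] at this
  rw [map_add, this, CharTwo.add_self_eq_zero]

omit [CharP K 2] in
theorem rf_fix {a y : l ⊕ l → K} (h : om y a = 0) : rf w a *ᵥ y = y := by
  rw [rf, tv_mulVec, h, mul_zero, zero_smul, add_zero]

theorem even_fixS_rf (hg : Pres w g) {a : l ⊕ l → K} (ha : Qw w a ≠ 0) :
    Even (finrank K (fixS (rf w a * g))) ↔ ¬ Even (finrank K (fixS g)) := by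
  have hc : fixS (rf w a * g) ⊓ LinearMap.ker (om.flip a) = fixS g ⊓ LinearMap.ker (om.flip a) := by
    ext x
    simp only [Submodule.mem_inf, mem_fixS, LinearMap.mem_ker, LinearMap.flip_apply,
      and_congr_left_iff]
    intro hx
    rw [← mulVec_mulVec]
    constructor
    · intro h
      apply sp_injective (pres_rf ha).mem
      rw [h, rf_fix hx]
    · intro h
      rw [h, rf_fix hx]
  by_cases hU : a ∈ LinearMap.range (Matrix.toLin' (g + 1))
  · obtain ⟨x, hx⟩ := hU
    rw [toLin'_apply, add_mulVec, one_mulVec] at hx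
    subst hx
    have h1 := finrank_inf_ker (fixS (rf w (g *ᵥ x + x) * g)) (om.flip (g *ᵥ x + x))
      ((mem_fixS _ x).mpr (rf_move hg ha)) (by
        rwa [LinearMap.flip_apply, map_add, om_self, add_zero, om_comm, ← Qw_move hg])
    rw [hc, inf_eq_left.mpr (fun y hy => om_move hg x ((mem_fixS _ _).mp hy))] at h1
    rw [← h1, Nat.even_add_one]
  · obtain ⟨y, hy, hya⟩ := exists_om_sep _ hU
    have hy' : g *ᵥ y = y := by
      rw [← add_left_inj y, vec_add_self]
      apply eq_zero_of_om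
      intro z
      obtain ⟨z, rfl⟩ := sp_surjective hg.mem z
      have := hy _ ⟨z, rfl⟩
      rw [toLin'_apply, add_mulVec, one_mulVec, map_add] at this
      rw [map_add, LinearMap.add_apply, (mem_sp_iff g).mp hg.mem, add_comm, this]
    have h1 := finrank_inf_ker (fixS g) (om.flip a) ((mem_fixS _ y).mpr hy') hya
    rw [← hc, inf_eq_left.mpr] at h1
    · rw [← h1, Nat.even_add_one, not_not]
    · intro x hx
      rw [mem_fixS, ← mulVec_mulVec, rf, tv_mulVec] at hx
      by_cases h0 : om (g *ᵥ x) a = 0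
      · rw [h0, mul_zero, zero_smul, add_zero] at hx
        rwa [hx] at h0
      · exfalso
        apply hU
        refine ⟨((Qw w a)⁻¹ * om (g *ᵥ x) a)⁻¹ • x, ?_⟩
        rw [map_smul, toLin'_apply, add_mulVec, one_mulVec]
        nth_rewrite 3 [← hx]
        rw [← add_assoc, vec_add_self, zero_add, smul_smul,
          inv_mul_cancel₀ (mul_ne_zero (inv_ne_zero ha) h0), one_smul]

/-- left multiplication by `h` shifts the parity of fixed spaces uniformly. -/
def Good (w : l ⊕ l → K) (h : Matrix (l ⊕ l) (l ⊕ l) K) : Prop :=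
  ∃ ε : Prop, ∀ g, Pres w g → (Even (finrank K (fixS (h * g))) ↔ (Even (finrank K (fixS g)) ↔ ε))

theorem good_of_rf (hg : Pres w g) {a : l ⊕ l → K} (ha : Qw w a ≠ 0) (h : Good w (rf w a * g)) :
    Good w g := by
  obtain ⟨ε, hε⟩ := h
  refine ⟨¬ ε, fun k hk => ?_⟩
  have h1 := hε k hk
  rw [mul_assoc, even_fixS_rf (hg.mul hk) ha] at h1
  tauto

theorem good_step [Infinite K] (hg : Pres w g) {a₀ : l ⊕ l → K} (ha₀ : Qw w a₀ ≠ 0)
    {x : l ⊕ l → K} (hx : g *ᵥ x ≠ x) : ∃ g', Pres w g' ∧ (Good w g' → Good w g) ∧ g' *ᵥ x = x ∧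
      ∀ y, g *ᵥ y = y → om y a₀ = 0 → g' *ᵥ y = y := by
  by_cases h : Qw w (g *ᵥ x + x) = 0
  swap
  · exact ⟨_, (pres_rf h).mul hg, good_of_rf hg h, rf_move hg h, fun y hy _ => by
      rw [← mulVec_mulVec, hy, rf_fix (om_move hg x hy)]⟩
  let W := fixS g ⊓ LinearMap.ker (om.flip a₀)
  obtain ⟨a₁, h₁, h₁'⟩ := exists_om_sep W (a := x) (fun h => hx ((mem_fixS _ _).mp h.1))
  obtain ⟨a₂, h₂, h₂'⟩ := exists_om_sep W (a := g *ᵥ x)
    (fun h => hx (sp_injective hg.mem ((mem_fixS _ _).mp h.1)))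
  obtain ⟨b, hb, hb₁, hb₂⟩ : ∃ b, (∀ u ∈ W, om b u = 0) ∧ om b x ≠ 0 ∧ om b (g *ᵥ x) ≠ 0 := by
    by_cases e₁ : om a₁ (g *ᵥ x) = 0
    · by_cases e₂ : om a₂ x = 0
      · exact ⟨a₁ + a₂, fun u hu => by simp [h₁ u hu, h₂ u hu], by simp [e₂, h₁'],
          by simp [e₁, h₂']⟩
      · exact ⟨a₂, h₂, e₂, h₂'⟩
    · exact ⟨a₁, h₁, h₁', e₁⟩
  have hP : ((C (om a₀ x) + C (om b x) * X) * (C (om a₀ (g *ᵥ x)) + C (om b (g *ᵥ x)) * X) *
      (C (Qw w a₀) + C (om a₀ b) * X + C (Qw w b) * X ^ 2) : K[X]) ≠ 0 := by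
    refine mul_ne_zero (mul_ne_zero ?_ ?_) ?_
    · exact fun h => hb₁ (by simpa using congrArg (coeff · 1) h)
    · exact fun h => hb₂ (by simpa using congrArg (coeff · 1) h)
    · exact fun h => ha₀ (by simpa using congrArg (coeff · 0) h)
  obtain ⟨t, ht⟩ : ∃ t, ¬ IsRoot _ t := by
    by_contra! h
    exact hP (eq_zero_of_infinite_isRoot _ (Set.infinite_univ.mono fun t _ => h t))
  simp only [IsRoot.def, eval_mul, eval_add, eval_C, eval_X, eval_pow, mul_eq_zero, not_or] at ht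
  obtain ⟨⟨t₁, t₂⟩, t₃⟩ := ht
  obtain ⟨a, ha⟩ : ∃ a, a = a₀ + t • b := ⟨_, rfl⟩
  have q₁ : om x a ≠ 0 := by
    rw [om_comm, ha]; simpa [mul_comm] using t₁
  have q₂ : om (g *ᵥ x) a ≠ 0 := by
    rw [om_comm, ha]; simpa [mul_comm] using t₂
  have q₃ : Qw w a ≠ 0 := by
    rw [ha, Qw_add, Qw_smul, map_smul, smul_eq_mul]
    intro h
    apply t₃
    linear_combination h
  have hg₁ := (pres_rf q₃).mul hg
  have q₄ : Qw w ((rf w a * g) *ᵥ x + x) ≠ 0 := by
    rw [← mulVec_mulVec, rf, tv_mulVec, add_right_comm, Qw_add, h, Qw_smul, map_smul,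
      map_add om, LinearMap.add_apply, smul_eq_mul]
    have e : 0 + ((Qw w a)⁻¹ * om (g *ᵥ x) a) ^ 2 * Qw w a +
        (Qw w a)⁻¹ * om (g *ᵥ x) a * (om (g *ᵥ x) a + om x a) =
        (Qw w a)⁻¹ * om (g *ᵥ x) a * om x a := by
      field_simp
      linear_combination (om (g *ᵥ x) a ^ 2) * CharTwo.two_eq_zero (R := K)
    rw [e]
    exact mul_ne_zero (mul_ne_zero (inv_ne_zero q₃) q₂) q₁
  refine ⟨_, (pres_rf q₄).mul hg₁, fun h => good_of_rf hg q₃ (good_of_rf hg₁ q₄ h),
    rf_move hg₁ q₄, fun y hy hy' => ?_⟩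
  have hy₁ : (rf w a * g) *ᵥ y = y := by
    rw [← mulVec_mulVec, hy, rf_fix]
    rw [ha, map_add, map_smul, hy', om_comm, hb y ⟨(mem_fixS _ _).mpr hy, hy'⟩]
    simp
  rw [← mulVec_mulVec, hy₁, rf_fix (om_move hg₁ x hy₁)]

theorem good_of_pres [Infinite K] (hg : Pres w g) : Good w g := by
  have one : Good w 1 := ⟨True, fun g _ => by rw [one_mul, iff_true]⟩
  rcases isEmpty_or_nonempty l with hl | ⟨⟨i⟩⟩
  · rwa [Subsingleton.elim g 1]
  obtain ⟨a₀, ha₀⟩ : ∃ a₀, Qw w a₀ ≠ 0 := by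
    by_contra! h
    have := Qw_add w (Pi.single (.inl i) 1) (Pi.single (.inr i) 1)
    rw [h, h, h] at this
    simp [om_apply, pr_apply, Pi.single_apply] at this
  induction hn : finrank K (l ⊕ l → K) -
    finrank K (fixS g ⊓ LinearMap.ker (om.flip a₀) : Submodule K _)
    using Nat.strong_induction_on generalizing g with
  | _ n ih =>
  by_cases h : ∃ x, om x a₀ = 0 ∧ g *ᵥ x ≠ x
  · obtain ⟨x, hx, hx'⟩ := h
    obtain ⟨g', h1, h2, h3, h4⟩ := good_step hg ha₀ hx'
    refine h2 (ih _ ?_ h1 rfl)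
    have h5 : fixS g ⊓ LinearMap.ker (om.flip a₀) < fixS g' ⊓ LinearMap.ker (om.flip a₀) := by
      refine lt_of_le_of_ne (fun y hy => ⟨(mem_fixS _ _).mpr (h4 y ((mem_fixS _ _).mp hy.1) hy.2),
        hy.2⟩) fun h => hx' ?_
      have : x ∈ fixS g' ⊓ LinearMap.ker (om.flip a₀) := ⟨(mem_fixS _ _).mpr h3, hx⟩
      rw [← h] at this
      exact (mem_fixS _ _).mp this.1
    have h6 := Submodule.finrank_lt_finrank_of_lt h5
    have h7 := Submodule.finrank_le (fixS g' ⊓ LinearMap.ker (om.flip a₀))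
    omega
  · push Not at h
    by_cases h1 : ∀ x, g *ᵥ x = x
    · rwa [mat_ext_mulVec (A := g) (B := 1) (by simpa using h1)]
    push Not at h1
    obtain ⟨x, hx⟩ := h1
    obtain ⟨g', h1, h2, h3, h4⟩ := good_step hg ha₀ hx
    have hx0 : om x a₀ ≠ 0 := fun h' => hx (h x h')
    apply h2
    rwa [mat_ext_mulVec (A := g') (B := 1) fun y => ?_]
    have h5 : om (y - (om y a₀ / om x a₀) • x) a₀ = 0 := by simp [hx0]
    have h6 := h4 _ (h _ h5) h5
    rw [mulVec_sub, mulVec_smul, h3, sub_left_inj] at h6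
    rw [h6, one_mulVec]

theorem even_fixS_of_mem_Ev [Infinite K] (hg : g ∈ Ev w) : Even (finrank K (fixS g)) := by
  induction hg using Submonoid.closure_induction_left with
  | one =>
    have : fixS (1 : Matrix (l ⊕ l) (l ⊕ l) K) = ⊤ := by simp [fixS]
    rw [this]
    simp
  | mul_left s hs y hy ih =>
    have hy' := pres_of_mem_Ev hy
    rcases hs with ⟨h, hh, rfl⟩ | ⟨a, b, ha, hb, rfl⟩
    · obtain ⟨ε, hε⟩ := good_of_pres hh
      rw [mul_assoc, hε _ (hh.mul hy'), hε _ hy']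
      tauto
    · rw [mul_assoc, even_fixS_rf ((pres_rf hb).mul hy') ha, even_fixS_rf hy' hb, not_not]
      exact ih

end

section
variable {l : Type*} [Fintype l] [DecidableEq l] {F K : Type*} [Field F] [Field K] [CharP F 2]
  [CharP K 2] (φ : F →+* K)

omit [DecidableEq l] [CharP F 2] [CharP K 2] in
theorem Qw_map (w x : l ⊕ l → F) : Qw (φ ∘ w) (φ ∘ x) = φ (Qw w x) := by
  simp [Qw, pr_map, om_map]

theorem Pres.map {w : l ⊕ l → F} {g : Matrix (l ⊕ l) (l ⊕ l) F} (hg : Pres w g) :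
    Pres (φ ∘ w) (g.map φ) := by
  have hsp := (mem_sp_iff _).mp (SymplecticGroup.map_mem hg.mem φ)
  intro x
  induction x using Pi.single_induction with
  | zero => simp
  | single i c =>
    have e : (Pi.single i c : l ⊕ l → K) = c • (φ ∘ (Pi.single i 1 : l ⊕ l → F)) := by
      rw [comp_single, ← Pi.single_smul, smul_eq_mul, mul_one]
    have e2 : g.map φ *ᵥ (φ ∘ (Pi.single i 1 : l ⊕ l → F)) = φ ∘ (g *ᵥ Pi.single i 1) :=
      funext fun j => (RingHom.map_mulVec φ g _ j).symm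
    rw [e, mulVec_smul, Qw_smul, Qw_smul, e2, Qw_map, Qw_map, hg]
  | add x y hx hy => rw [mulVec_add, Qw_add, Qw_add, hx, hy, hsp]

theorem Ev_base {w : l ⊕ l → F} {g : Matrix (l ⊕ l) (l ⊕ l) F} (hg : g ∈ Ev w) :
    g.map φ ∈ Ev (φ ∘ w) := by
  induction hg using Submonoid.closure_induction with
  | mem x hx =>
    apply Submonoid.subset_closure
    rcases hx with ⟨h, hh, rfl⟩ | ⟨a, b, ha, hb, rfl⟩
    · exact Or.inl ⟨_, hh.map φ, Matrix.map_mul⟩
    · exact Or.inr ⟨φ ∘ a, φ ∘ b, by simpa [Qw_map] using ha, by simpa [Qw_map] using hb,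
        by simp only [Matrix.map_mul, rf, tv_map, Qw_map, map_inv₀]⟩
  | one => rw [Matrix.map_one _ (map_zero φ) (map_one φ)]; exact Submonoid.one_mem _
  | mul x y _ _ hx hy => rw [Matrix.map_mul]; exact Submonoid.mul_mem _ hx hy

end

theorem geom_sum_eq_zero_of_mem_Ev {l : Type*} [Fintype l] [DecidableEq l] {F : Type*} [Field F]
    [CharP F 2] {w : l ⊕ l → F} {g : Matrix (l ⊕ l) (l ⊕ l) F} (hg : g ∈ Ev w) {N : ℕ}
    (hN : g.charpoly ∣ X ^ N - 1) : ∑ i ∈ Finset.range N, g ^ i = 0 := by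
  let φ := algebraMap F (AlgebraicClosure F)
  have h1 := even_fixS_of_mem_Ev (Ev_base φ hg)
  have h2 := geom_sum_eq_zero (g.map φ) (N := N) (fun h => by rw [h] at h1; simp at h1) (by
    rw [charpoly_map]
    simpa using Polynomial.map_dvd φ hN)
  have e : (∑ i ∈ Finset.range N, g.map φ ^ i) = φ.mapMatrix (∑ i ∈ Finset.range N, g ^ i) := by
    rw [map_sum]
    simp only [map_pow]
    rfl
  ext i j
  apply φ.injective
  rw [e] at h2
  rw [Matrix.zero_apply, map_zero]
  exact congrFun (congrFun h2 i) j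

end Cfsg.Agent.H6
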