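import Cfsg.Agent.H2.D1Block

/-! A group of order `10752` with the local structure of `2^6 : L3(2)` has a normal subgroup of
order `64`: the centre of a character of degree three. -/

set_option autoImplicit false

namespace Cfsg.Agent.H6.M24

open Cfsg Cfsg.Agent.H3 Cfsg.Agent.H2.D1 Finset Subgroup
open scoped ComplexConjugate

variable {X : Type*} [Group X] [Finite X]

theorem card_modEq {p : ℕ} [Fact p.Prime] {x : X} (hx : IsPElt p x) {Q : Subgroup X}
    (hQ : x ∈ normalizer (Q : Set X)) :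
    Nat.card Q ≡ Nat.card (Q ⊓ centralizer {x} : Subgroup X) [MOD p] := by
  let _ : MulDistribMulAction (zpowers x) Q := MulDistribMulAction.compHom Q
    (Q.normalizerMonoidHom.comp (inclusion (zpowers_le.2 hQ)))
  convert hx.isPGroup_zpowers.card_modEq_card_fixedPoints Q using 1
  refine Eq.symm <| Nat.card_congr ⟨fun a => ⟨a.1.1, a.1.2, mem_centralizer_singleton_iff.2
    (mul_inv_eq_iff_eq_mul.1 (congrArg Subtype.val (a.2 ⟨x, mem_zpowers x⟩))).symm⟩,
    fun a => ⟨⟨a.1, a.2.1⟩, fun ⟨_, k, rfl⟩ => Subtype.ext (mul_inv_eq_iff_eq_mul.2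
      (Commute.zpow_left (mem_centralizer_singleton_iff.1 a.2.2).symm k).eq)⟩,
    fun _ => rfl, fun _ => rfl⟩

theorem top_of_mem (hX : Nat.card X = 10752) {σ x : X} (hσ : orderOf σ = 7)
    (hNσ : Nat.card (normalizer (zpowers σ : Set X)) = 21) (hx : orderOf x = 3)
    (hr : IsConj x x⁻¹) {M : Subgroup X} [M.Normal] (h : σ ∈ M) : M = ⊤ := by
  haveI : Fact (Nat.Prime 7) := ⟨by norm_num⟩
  have hc : Nat.card (zpowers σ) = 7 ^ (Nat.card X).factorization 7 := by
    rw [Nat.card_zpowers, hσ, hX]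
    have : (10752 : ℕ).factorization 7 = 1 := by
      rw [show (10752 : ℕ) = 7 * 1536 from rfl, Nat.factorization_mul (by norm_num) (by norm_num)]
      simp [Nat.Prime.factorization_self (show Nat.Prime 7 by norm_num),
        Nat.factorization_eq_zero_of_not_dvd (show ¬ 7 ∣ 1536 by norm_num)]
    rw [this]; rfl
  have hF := Sylow.normalizer_sup_eq_top' (N := M) (Sylow.ofCard _ hc)
    (by rw [Sylow.coe_ofCard]; exact zpowers_le.2 h)
  have hF' : normalizer (zpowers σ : Set X) ⊔ M = ⊤ := hF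
  set N := normalizer (zpowers σ : Set X)
  let f : N →* X ⧸ M := (QuotientGroup.mk' M).comp N.subtype
  have hf : Function.Surjective f := by
    intro q
    obtain ⟨g, rfl⟩ := QuotientGroup.mk_surjective q
    have hg : g ∈ N ⊔ M := hF' ▸ mem_top g
    obtain ⟨a, ha, b, hb, rfl⟩ := mem_sup_of_normal_right.1 hg
    refine ⟨⟨a, ha⟩, ?_⟩
    simp [f, (QuotientGroup.eq_one_iff b).2 hb]
  have hσN : σ ∈ N := le_normalizer (mem_zpowers σ)
  have h7 : 7 ∣ Nat.card f.ker := by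
    have : (⟨σ, hσN⟩ : N) ∈ f.ker := by
      simpa [f, MonoidHom.mem_ker] using h
    have h2 := orderOf_dvd_natCard (⟨_, this⟩ : f.ker)
    rwa [← orderOf_coe, ← orderOf_coe, hσ] at h2
  have h3 : Nat.card (X ⧸ M) ∣ 3 := by
    have := f.ker.card_mul_index
    rw [index_ker, MonoidHom.range_eq_top.2 hf, card_top, hNσ] at this
    obtain ⟨k, hk⟩ := h7
    rw [hk] at this
    exact ⟨k, by linarith⟩
  have hq : ((x : X ⧸ M)) = 1 := by
    rcases (Nat.dvd_prime Nat.prime_three).1 h3 with e | e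
    · haveI := (Nat.card_eq_one_iff_unique.1 e).1
      exact Subsingleton.elim _ _
    · haveI : Fact (Nat.Prime 3) := ⟨Nat.prime_three⟩
      haveI := isCyclic_of_prime_card e
      obtain ⟨c, hc⟩ := isConj_iff.1 hr
      have h1 : (c : X ⧸ M) * x * (c : X ⧸ M)⁻¹ = (x : X ⧸ M)⁻¹ := by
        rw [← QuotientGroup.mk_mul, ← QuotientGroup.mk_inv, ← QuotientGroup.mk_mul, hc,
          QuotientGroup.mk_inv]
      have h2 : (c : X ⧸ M) * x = x * c := IsCyclic.commGroup.mul_comm _ _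
      rw [h2, mul_inv_cancel_right] at h1
      have h4 : (x : X ⧸ M) ^ 3 = 1 := by
        rw [← QuotientGroup.mk_pow, ← hx, pow_orderOf_eq_one]; rfl
      calc (x : X ⧸ M) = (x : X ⧸ M) ^ 3 * ((x : X ⧸ M)⁻¹ * (x : X ⧸ M)⁻¹) := by group
        _ = 1 := by rw [h4, one_mul]; nth_rw 1 [← h1]; simp
  have hxM : x ∈ M := (QuotientGroup.eq_one_iff x).1 hq
  have h3M : 3 ∣ Nat.card M := by
    have h2 := orderOf_dvd_natCard (⟨_, hxM⟩ : M)
    rwa [← orderOf_coe, hx] at h2
  rcases (Nat.dvd_prime Nat.prime_three).1 h3 with e | e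
  · exact index_eq_one.1 e
  · have := M.card_mul_index
    rw [show M.index = 3 from e, hX] at this
    omega

theorem card_of_notMem (hX : Nat.card X = 10752) {σ : X} (hσ : orderOf σ = 7)
    (hCσ : Nat.card (centralizer ({σ} : Set X)) = 7) {M : Subgroup X} [M.Normal] (h : σ ∉ M) :
    Nat.card M = 1 ∨ Nat.card M = 8 ∨ Nat.card M = 64 ∨ Nat.card M = 512 := by
  haveI : Fact (Nat.Prime 7) := ⟨by norm_num⟩
  have h1 := card_modEq (p := 7) (x := σ) ⟨1, by rw [pow_one, ← hσ, pow_orderOf_eq_one]⟩ (Q := M)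
    (by rw [normalizer_eq_top]; trivial)
  have h2 : Nat.card (M ⊓ centralizer {σ} : Subgroup X) = 1 := by
    have := card_dvd_of_le (inf_le_right : M ⊓ centralizer {σ} ≤ centralizer ({σ} : Set X))
    rw [hCσ] at this
    refine ((Nat.dvd_prime (by norm_num)).1 this).resolve_right fun e => h ?_
    have := eq_of_le_of_card_ge (inf_le_right : M ⊓ centralizer {σ} ≤ centralizer ({σ} : Set X))
      (by rw [e, hCσ])
    have h3 : σ ∈ M ⊓ centralizer {σ} := by
      rw [this]; exact mem_centralizer_singleton_iff.2 rfl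
    exact h3.1
  rw [h2] at h1
  have h3 := card_subgroup_dvd_card M
  rw [hX] at h3
  have h4 : Nat.card M ∈ Nat.divisors 10752 := Nat.mem_divisors.2 ⟨h3, by norm_num⟩
  generalize Nat.card M = n at h1 h4
  revert n
  have : ∀ n ∈ Nat.divisors 10752, n % 7 = 1 % 7 → n = 1 ∨ n = 8 ∨ n = 64 ∨ n = 512 := by
    decide +kernel
  exact fun n h1 h4 => this n h4 h1

theorem arith {d1 d2 d a1 a2 a m1 m2 m : ℤ} (h1 : d1 ∣ 10752) (h2 : d2 ∣ 10752) (h : d ∣ 10752)
    (p1 : 1 < d1) (p2 : 1 < d2) (p : 0 < d) (q1 : d1 ^ 2 ≤ 10752) (q2 : d2 ^ 2 ≤ 10752)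
    (q : d ^ 2 ≤ 10752) (e1 : d1 = 7 * m1 + 6 * a1) (e2 : d2 = 7 * m2 + 6 * a2)
    (e : d = 7 * m + 3 * a) (s1 : a1 = 1 ∨ a1 = -1) (s2 : a2 = 1 ∨ a2 = -1) (s : a = 1 ∨ a = -1)
    (r : 1 = a * d + (a1 * d1 + a2 * d2)) : d = 3 := by
  have key : ∀ {c : ℤ}, c ∣ 10752 → 0 < c → c ^ 2 ≤ 10752 → c % 7 ≠ 0 →
      c = 1 ∨ c = 2 ∨ c = 4 ∨ c = 8 ∨ c = 16 ∨ c = 32 ∨ c = 64 ∨ c = 3 ∨ c = 6 ∨ c = 12 ∨
        c = 24 ∨ c = 48 ∨ c = 96 := by
    intro c hc hp hq h7
    have : c ≤ 103 := by nlinarith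
    interval_cases c <;> simp_all
  have k1 := key h1 (by omega) q1 (by omega)
  have k2 := key h2 (by omega) q2 (by omega)
  have k := key h p q (by omega)
  rcases s1 with rfl | rfl <;> rcases s2 with rfl | rfl <;> rcases s with rfl | rfl <;> omega

theorem dg_sq_le' (χ : IrrCharacter X) : (dg χ : ℤ) ^ 2 ≤ Nat.card X := by
  have h := sum_irr_one_sq (G := X)
  simp only [dg_eq] at h
  have h' : ∑ χ : IrrCharacter X, (dg χ : ℤ) ^ 2 = Nat.card X := by exact_mod_cast h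
  rw [← h']
  exact single_le_sum (f := fun χ : IrrCharacter X => (dg χ : ℤ) ^ 2) (fun _ _ => sq_nonneg _)
    (mem_univ χ)

theorem exists_three (hX : Nat.card X = 10752) {σ x : X} (hσ : orderOf σ = 7)
    (hCσ : Nat.card (centralizer ({σ} : Set X)) = 7)
    (hNσ : Nat.card (normalizer (zpowers σ : Set X)) = 21) (hx : orderOf x = 3)
    (hr : IsConj x x⁻¹) : ∃ φ : X → ℂ, IsIrrCharacter X φ ∧ φ 1 = (3 : ℕ) := by
  classical
  haveI : Fact (Nat.Prime 7) := ⟨by norm_num⟩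
  have h : Ctx 7 σ := ⟨by norm_num, hσ, by rw [hX]; norm_num⟩
  have hH : Nat.card h.H = 3 := by
    have := h.card_N
    rw [hNσ, hCσ] at this
    omega
  have hH' : h.H ≠ ⊤ := fun e => by
    rw [e, card_top, Nat.card_eq_fintype_card, ZMod.card_units] at hH
    omega
  obtain ⟨B⟩ := h.blk_two (lo := 0) (fun _ _ _ _ => Nat.zero_le _) hH'
  rw [hH] at B
  rcases B.enum with ⟨e, -⟩ | ⟨θ, hθ, t, b, ε, m, -, ht, hε, hR, e1, e2, e3, -, -, -, hs⟩
  · omega
  obtain rfl : t = 2 := by omega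
  have hRN : B.R = insert θ B.N := by
    ext χ; rw [hR, mem_insert]
  have hge : ∀ χ ∈ B.N, 1 ≤ (B.ent χ).1 ^ 2 := fun χ hχ => by
    have := (B.opt χ hχ).2.1
    have := sq_pos_of_ne_zero this
    omega
  have hb : (b + ε) ^ 2 + b ^ 2 = 1 := by
    have h0 : 0 ≤ ∑ χ ∈ B.N, (B.ent χ).1 ^ 2 := sum_nonneg fun _ _ => sq_nonneg _
    push_cast at hs
    have h1 : (b + ε) ^ 2 + b ^ 2 ≤ 3 := by linarith
    have h2 : -2 < b := by nlinarith [sq_nonneg (b + ε)]
    have h3 : b < 2 := by nlinarith [sq_nonneg (b + ε)]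
    rcases hε with rfl | rfl <;> interval_cases b <;> simp_all
  have ha : ε + 2 * b = 1 ∨ ε + 2 * b = -1 := by
    have h2 : -2 < b := by nlinarith [sq_nonneg (b + ε)]
    have h3 : b < 2 := by nlinarith [sq_nonneg (b + ε)]
    rcases hε with rfl | rfl <;> interval_cases b <;> simp_all
  have hs2 : ∑ χ ∈ B.N, (B.ent χ).1 ^ 2 = 2 := by
    push_cast at hs
    linarith
  have hone : ∀ χ ∈ B.N, (B.ent χ).1 = 1 ∨ (B.ent χ).1 = -1 := fun χ hχ => by
    have := single_le_sum (f := fun χ => (B.ent χ).1 ^ 2) (fun _ _ => sq_nonneg _) hχ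
    rw [hs2] at this
    have h0 := (B.opt χ hχ).2.1
    have h2 : -2 < (B.ent χ).1 := by nlinarith
    have h3 : (B.ent χ).1 < 2 := by nlinarith
    omega
  have hc : #B.N = 2 := by
    have : ∑ χ ∈ B.N, (B.ent χ).1 ^ 2 = ∑ χ ∈ B.N, (1 : ℤ) :=
      sum_congr rfl fun χ hχ => by rcases hone χ hχ with e | e <;> simp [e]
    rw [hs2, sum_const] at this
    simp only [nsmul_eq_mul, mul_one] at this
    exact_mod_cast this.symm
  obtain ⟨χ1, χ2, hne, hN⟩ := card_eq_two.1 hc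
  have hdg : ∀ χ ∈ B.R, dg χ = (B.ent χ).2.1 := fun χ hχ => by
    have := B.deg χ hχ
    rw [dg_eq] at this
    exact_mod_cast this
  have hrel := B.sum' (fun χ => (χ : X → ℂ) 1) (fun _ _ e => e 1 (IsPReg.one 7)) σ (mem_zpowers σ)
    h.ne_one
  rw [h.theta (mem_zpowers σ) h.ne_one, (IsPElt.one 7).pPart_eq,
    if_neg (fun e => h.ne_one (isConj_one_left.1 e)), hRN, sum_insert hθ, hN, sum_pair hne] at hrel
  simp only [dg_eq] at hrel
  rw [Pi.one_apply] at hrel
  have hrel' : (1 : ℤ) = (B.ent θ).1 * dg θ + ((B.ent χ1).1 * dg χ1 + (B.ent χ2).1 * dg χ2) := by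
    have : ((1 : ℤ) : ℂ) =
        (((B.ent θ).1 * dg θ + ((B.ent χ1).1 * dg χ1 + (B.ent χ2).1 * dg χ2) : ℤ) : ℂ) := by
      push_cast at hrel ⊢
      linear_combination -hrel
    exact_mod_cast this
  have hθR : θ ∈ B.R := (hR θ).2 (Or.inl rfl)
  have hlin : ∀ χ ∈ B.N, (1 : ℤ) < dg χ := fun χ hχ => by
    have hχR : χ ∈ B.R := (hR χ).2 (Or.inr hχ)
    by_contra hlt
    have hd : dg χ = 1 := by have := dg_pos χ; omega
    obtain ⟨o1, -, m, hm, -, -⟩ := B.opt χ hχ
    rw [← hdg χ hχR, hd] at hm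
    have ha1 : (B.ent χ).1 = -1 := by
      rcases hone χ hχ with e | e
      · rw [e] at hm; push_cast at hm; omega
      · exact e
    have hv := B.val χ hχR o1 σ (mem_zpowers σ) h.ne_one
    have hk : σ ∈ charKer (irr_isCharacter χ.2) := by
      rw [mem_charKer, hv, dg_eq, hd, ha1]; simp
    have := top_of_mem hX hσ hNσ hx hr hk
    refine (B.mem χ hχR).2 (Subtype.ext (irr_eq_one_of_ker_top χ.2 fun g => ?_))
    exact (mem_charKer (irr_isCharacter χ.2)).1 (this ▸ mem_top g)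
  have h1N : χ1 ∈ B.N := by rw [hN]; simp
  have h2N : χ2 ∈ B.N := by rw [hN]; simp
  obtain ⟨-, -, m1, hm1, -, -⟩ := B.opt χ1 h1N
  obtain ⟨-, -, m2, hm2, -, -⟩ := B.opt χ2 h2N
  rw [← hdg _ ((hR _).2 (Or.inr h1N))] at hm1
  rw [← hdg _ ((hR _).2 (Or.inr h2N))] at hm2
  rw [← hdg _ hθR] at e3
  have hdv : ∀ χ : IrrCharacter X, (dg χ : ℤ) ∣ 10752 := fun χ => by
    have := irr_degree_dvd_card χ.2 (dg_eq χ)
    rw [hX] at this
    exact_mod_cast this
  have hsq : ∀ χ : IrrCharacter X, (dg χ : ℤ) ^ 2 ≤ 10752 := fun χ => by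
    have := dg_sq_le' χ
    rw [hX] at this
    exact_mod_cast this
  have := arith (m1 := m1) (m2 := m2) (m := m) (hdv χ1) (hdv χ2) (hdv θ) (hlin _ h1N) (hlin _ h2N)
    (by exact_mod_cast dg_pos θ) (hsq _) (hsq _) (hsq _) (by push_cast at hm1; linarith)
    (by push_cast at hm2; linarith) (by rw [e1]; push_cast at e3 ⊢; linarith) (hone _ h1N)
    (hone _ h2N) (by rw [e1]; push_cast; exact ha) hrel'
  refine ⟨θ, θ.2, ?_⟩
  rw [dg_eq]
  exact_mod_cast this

/-- The centre of a character. -/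
def cen {φ : X → ℂ} (hφ : IsCharacter X φ) : Subgroup X where
  carrier := {g | ‖φ g‖ = ‖φ 1‖}
  one_mem' := rfl
  mul_mem' := fun {a b} ha hb => by
    obtain ⟨u, hu, e⟩ := exists_scalar_of_norm_eq hφ ha
    change ‖φ (a * b)‖ = _
    rw [char_mul_of_scalar hφ hu e, norm_mul, hu, one_mul]
    exact hb
  inv_mem' := fun {a} ha => by
    change ‖φ a⁻¹‖ = _
    rw [char_inv hφ, Complex.norm_conj]
    exact ha

instance cen_normal {φ : X → ℂ} (hφ : IsCharacter X φ) : (cen hφ).Normal :=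
  ⟨fun n hn g => by
    change ‖φ (g * n * g⁻¹)‖ = _
    rw [← isClassFunction_isConj (char_isClassFunction hφ) (isConj_iff.2 ⟨g, rfl⟩)]
    exact hn⟩

theorem cube_mem {φ : X → ℂ} (hφ : IsCharacter X φ) (h3 : φ 1 = (3 : ℕ)) {g : X} (hg : φ g = 0) :
    g ^ 3 ∈ cen hφ := by
  obtain ⟨s, hs, h1, h2⟩ := char_eigenvalues hφ g
  rw [h3] at hs
  obtain ⟨a, b, c, rfl⟩ := Multiset.card_eq_three.1 (by exact_mod_cast hs)
  have e1 := h2 1
  have e3 := h2 3
  simp only [Multiset.insert_eq_cons, Multiset.map_cons, Multiset.map_singleton,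
    Multiset.sum_cons, Multiset.sum_singleton, pow_one] at e1 e3
  rw [hg] at e1
  have e : φ (g ^ 3) = 3 * (a * b * c) := by
    rw [e3]
    linear_combination (-(a ^ 2 + b ^ 2 + c ^ 2 - a * b - b * c - c * a)) * e1
  change ‖φ (g ^ 3)‖ = _
  rw [e, h3, norm_mul, norm_mul, norm_mul, norm_eq_one_of_pow_orderOf (h1 a (by simp)),
    norm_eq_one_of_pow_orderOf (h1 b (by simp)), norm_eq_one_of_pow_orderOf (h1 c (by simp))]
  simp

theorem char64 {X : Type*} [Group X] [Finite X] (hX : Nat.card X = 10752) {σ x : X}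
    (hσ : orderOf σ = 7) (hCσ : Nat.card (Subgroup.centralizer ({σ} : Set X)) = 7)
    (hNσ : Nat.card (Subgroup.normalizer (Subgroup.zpowers σ : Set X)) = 21)
    (hx : orderOf x = 3) (hCx : Nat.card (Subgroup.centralizer ({x} : Set X)) = 12)
    (hD : ∀ g : X, Commute g x → g ^ 6 = 1) (hr : IsConj x x⁻¹) :
    ∃ K : Subgroup X, K.Normal ∧ Nat.card K = 64 ∧ ∀ d : X, Commute d x → d ^ 2 = 1 → d ∈ K := by
  classical
  obtain ⟨φ, hφ, h3⟩ := exists_three hX hσ hCσ hNσ hx hr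
  have hc := irr_isCharacter hφ
  have hx3 : x ^ 3 = 1 := hx ▸ pow_orderOf_eq_one x
  have hσK : σ ∉ cen hc := fun e => by
    have ht := top_of_mem hX hσ hNσ hx hr e
    haveI := Fintype.ofFinite X
    have h1 := sum_normSq_eq φ
    rw [classInner_irr_self hφ, sum_congr rfl (g := fun _ => (9 : ℝ)) fun g _ => by
      have : g ∈ cen hc := ht ▸ mem_top g
      have h2 : ‖φ g‖ = ‖φ 1‖ := this
      rw [h2, h3]; norm_num] at h1
    rw [sum_const, card_univ, ← Nat.card_eq_fintype_card, hX] at h1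
    norm_num at h1
  have hK := card_of_notMem hX hσ hCσ hσK
  have hxK : x ∉ cen hc := fun e => by
    have h2 := orderOf_dvd_natCard (⟨_, e⟩ : cen hc)
    rw [← orderOf_coe, hx] at h2
    omega
  have hd : ∀ d : X, Commute d x → d ^ 2 = 1 → d ∈ cen hc := fun d hd h2 => by
    have hcm : x ∈ centralizer ({x * d} : Set X) :=
      mem_centralizer_singleton_iff.2 ((Commute.refl x).mul_right hd.symm).eq
    have h3' : 3 ∣ Nat.card (centralizer ({x * d} : Set X)) := by
      have h2 := orderOf_dvd_natCard (⟨_, hcm⟩ : centralizer ({x * d} : Set X))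
      rwa [← orderOf_coe, hx] at h2
    have hco : Nat.Coprime (centralizer ({x * d} : Set X)).index 3 := by
      refine ((Nat.Prime.coprime_iff_not_dvd Nat.prime_three).2 fun e => ?_).symm
      have := mul_dvd_mul h3' e
      rw [card_mul_index, hX] at this
      omega
    have e3 : (x * d) ^ 3 = d := by
      rw [hd.symm.mul_pow, hx3, one_mul, pow_succ, h2, one_mul]
    have e4 : (x * d) ^ 4 = x := by
      rw [pow_succ, e3, ← mul_assoc, hd.eq, mul_assoc, ← sq, h2, mul_one]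
    rcases irr_eq_zero_or_norm_eq hφ h3 (x * d) hco with e | e
    · exact e3 ▸ cube_mem hc h3 e
    · exact absurd (e4 ▸ pow_mem (show x * d ∈ cen hc from e) 4) hxK
  refine ⟨cen hc, inferInstance, ?_, hd⟩
  haveI : Fact (Nat.Prime 3) := ⟨Nat.prime_three⟩
  have h1 := card_modEq (p := 3) (x := x) ⟨1, by rw [pow_one, hx3]⟩ (Q := cen hc)
    (by rw [normalizer_eq_top]; trivial)
  obtain ⟨T, hT⟩ := Sylow.exists_subgroup_card_pow_prime (G := centralizer ({x} : Set X)) 2
    (n := 2) (by rw [hCx]; norm_num)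
  have hle : T.map (centralizer ({x} : Set X)).subtype ≤ cen hc ⊓ centralizer {x} := by
    rintro _ ⟨t, ht, rfl⟩
    have hcm : Commute (t : X) x := mem_centralizer_singleton_iff.1 t.2
    refine ⟨hd _ hcm ?_, t.2⟩
    have h4 : (t : X) ^ 4 = 1 := by
      have := pow_card_eq_one' (x := (⟨t, ht⟩ : T))
      rw [hT] at this
      exact congrArg (fun y : T => ((y : centralizer ({x} : Set X)) : X)) this
    have h6 := hD _ hcm
    calc (t : X) ^ 2 = (t : X) ^ 6 * ((t : X) ^ 4)⁻¹ := by group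
      _ = 1 := by rw [h4, h6]; simp
  have h4 := card_dvd_of_le hle
  rw [card_map_of_injective (subtype_injective _), hT] at h4
  have h12 := card_dvd_of_le (inf_le_right : cen hc ⊓ centralizer {x} ≤ centralizer ({x} : Set X))
  rw [hCx] at h12
  have h5 := card_dvd_of_le (inf_le_left : cen hc ⊓ centralizer {x} ≤ cen hc)
  generalize Nat.card (cen hc ⊓ centralizer {x} : Subgroup X) = n at h1 h4 h12 h5
  have : n ≤ 12 := Nat.le_of_dvd (by norm_num) h12
  unfold Nat.ModEq at h1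
  rcases hK with e | e | e | e <;> rw [e] at h1 h5 <;> first | exact e | (interval_cases n <;> omega)

end Cfsg.Agent.H6.M24
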