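import Cfsg.Agent.H5.O8xEA

/-!
# The outer involution is not fused into the Sylow subgroup of the simple group
-/

set_option autoImplicit false
set_option maxRecDepth 100000
set_option synthInstance.maxSize 100000

namespace Cfsg.Agent.H6.O8x

open Subgroup Cfsg.Agent.H3.O8 Cfsg.Agent.H3.L43 Cfsg.Agent.H5.O8 Cfsg.Agent.H9
open scoped Pointwise

variable {G : Type*} [Group G]

theorem conj_into [Finite G] {L P R : Subgroup G} (hPL : P ≤ L) (hP : IsPGroup 3 P)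
    (h : ∀ g ∈ L, (∃ k, g ^ 3 ^ k = 1) → (∀ x ∈ P, cj g x ∈ P) → g ∈ P) (hR : IsPGroup 3 R)
    (hRL : R ≤ L) : ∃ l, ∀ r ∈ R, cj l r ∈ P := by
  have : Fact (Nat.Prime 3) := ⟨Nat.prime_three⟩
  have hS : IsSylowIn 3 P L := by
    obtain ⟨R, hR, hPR⟩ := exists_isSylowIn_ge hPL hP
    rcases hPR.eq_or_lt with rfl | hlt
    · exact hR
    obtain ⟨x, hx1, hx2, hx3⟩ := H7.exists_mem_normalizer_of_lt hR.isPGroup.isNilpotent hlt
    obtain ⟨n, hn⟩ := hR.isPGroup ⟨x, hx1⟩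
    exact absurd (h x (hR.le hx1) ⟨n, congrArg Subtype.val hn⟩
      fun y hy => conj_mem_of_mem_normalizer hx3 hy) hx2
  obtain ⟨T, hT, hRT⟩ := exists_isSylowIn_ge hRL hR
  obtain ⟨l, -, e⟩ := hT.exists_conj hS
  exact ⟨l, fun r hr => e ▸ smul_mem_pointwise_smul r (MulAut.conj l) T (hRT hr)⟩

theorem mem_of_pow_four [Finite G] {K : Subgroup G} {x : G} (h3 : ∃ k, x ^ 3 ^ k = 1)
    (h : x ^ 4 ∈ K) : x ∈ K := by
  obtain ⟨n, hn⟩ := h3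
  obtain ⟨m, hm⟩ := exists_pow_eq_self_of_coprime (x := x) (n := 4) (Nat.Coprime.coprime_dvd_right
    (orderOf_dvd_of_pow_eq_one hn) (Nat.Coprime.pow_right n (by norm_num)))
  exact hm ▸ pow_mem h m

variable {b : Bool} {ξ : V → G} {μ : SP → G} {i : G}

/-- The subgroup of `J` given by a set of vectors. -/
def sub (c : Cfg b ξ μ i) (S : V → Prop) (h0 : S 0) (h1 : ∀ u v, S u → S v → S (u + v))
    (h2 : ∀ u, S u → S (-u)) : Subgroup G where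
  carrier := {g | ∃ v, S v ∧ g = ξ v}
  one_mem' := ⟨0, h0, c.zero.symm⟩
  mul_mem' := by
    rintro _ _ ⟨u, hu, rfl⟩ ⟨v, hv, rfl⟩
    exact ⟨_, h1 u v hu hv, (c.add _ _).symm⟩
  inv_mem' := by
    rintro _ ⟨u, hu, rfl⟩
    exact ⟨_, h2 u hu, (c.neg _).symm⟩

theorem sub_pg (c : Cfg b ξ μ i) (S : V → Prop) (h0 : S 0) (h1 : ∀ u v, S u → S v → S (u + v))
    (h2 : ∀ u, S u → S (-u)) : IsPGroup 3 (sub c S h0 h1 h2) := by
  rintro ⟨_, v, hv, rfl⟩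
  exact ⟨1, Subtype.ext (c.cube v)⟩

theorem nf_pow (c : Cfg b ξ μ i) {a : SP} (h : ok b a) (v : V) (n : ℕ) :
    ∃ u, (ξ v * μ a) ^ n = ξ u * μ (a ^ n) := by
  induction n with
  | zero => exact ⟨0, by rw [pow_zero, pow_zero, c.zero, c.one, one_mul]⟩
  | succ n ih =>
    obtain ⟨u, hu⟩ := ih
    exact ⟨_, by rw [pow_succ, hu, c.nf_mul (ok_pow h n) h, pow_succ]⟩

/-- The product of the first two sign changes. -/
def s01 : SP := sg 0 * sg 1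

theorem into_D [Finite G] (c : Cfg true ξ μ i)
    (F1 : ∀ g, Commute g (ξ (ee 3)) → ∃ v a, g = ξ v * μ a) {R : Subgroup G} (hR : IsPGroup 3 R)
    (hf : ∀ r ∈ R, Commute r (μ s01)) :
    ∃ l, ∀ r ∈ R, ∃ v : V, (v 0 = 0 ∧ v 1 = 0) ∧ cj l r = ξ v := by
  have k0 : ∀ v : V, s01.act v = v ↔ v 0 = 0 ∧ v 1 = 0 := by decide +kernel
  refine conj_into (L := centralizer {μ s01}) (P := sub c (fun v => v 0 = 0 ∧ v 1 = 0) ⟨rfl, rfl⟩
    (fun u v hu hv => by simp [hu.1, hu.2, hv.1, hv.2]) (fun u hu => by simp [hu.1, hu.2])) ?_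
    (sub_pg _ _ _ _ _) (fun g hg h3 hn => ?_) hR fun r hr => H1.T3.mem_cent.2 (hf r hr)
  · rintro _ ⟨v, hv, rfl⟩
    exact H1.T3.mem_cent.2 (c.mxcomm (ok_true _) ((k0 v).2 hv)).symm
  obtain ⟨u2, h2, e2⟩ := hn _ ⟨ee 2, by decide, rfl⟩
  obtain ⟨u3, h3', e3⟩ := hn _ ⟨ee 3, by decide, rfl⟩
  have n2 : cj g (ξ (-ee 2)) = ξ (-u2) := by rw [c.neg, cj_inv, e2, c.neg]
  have n3 : cj g (ξ (-ee 3)) = ξ (-u3) := by rw [c.neg, cj_inv, e3, c.neg]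
  have k1 : ∀ u2 u3 : V, u2 0 = 0 ∧ u2 1 = 0 → u3 0 = 0 ∧ u3 1 = 0 → F (ee 2) = F u2 →
      F (ee 3) = F u3 → u2 ≠ u3 → -u2 ≠ u3 → u3 = ee 3 ∨ u3 = -ee 3 ∨
        ((u3 = ee 2 ∨ u3 = -ee 2) ∧ (u2 = ee 3 ∨ u2 = -ee 3)) := by decide +kernel
  have h4 : cj (g ^ 4) (ξ (ee 3)) = ξ (ee 3) := by
    rw [show g ^ 4 = g * (g * (g * g)) by simp only [pow_succ, pow_zero, one_mul, mul_assoc],
      mul_cj, mul_cj, mul_cj]
    rcases k1 u2 u3 h2 h3' (c.fJ _ _ _ e2) (c.fJ _ _ _ e3)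
      (fun e => absurd (c.injective (cj_inj (e2.trans (e ▸ e3.symm)))) (by decide))
      (fun e => absurd (c.injective (cj_inj (n2.trans (e ▸ e3.symm)))) (by decide)) with
      rfl | rfl | ⟨rfl | rfl, rfl | rfl⟩ <;> simp only [e2, e3, n2, n3, neg_neg]
  obtain ⟨v, a, rfl⟩ := F1 g (H1.T3.mem_cent.1 (mem_of_pow_four (K := centralizer {ξ (ee 3)}) h3
    (H1.T3.mem_cent.2 (cj_fix.1 h4))))
  rw [c.act' (ok_true a)] at e2 e3
  have k2 : ∀ a : SP, (a.act (ee 2) 0 = 0 ∧ a.act (ee 2) 1 = 0) →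
      (a.act (ee 3) 0 = 0 ∧ a.act (ee 3) 1 = 0) → a ^ 4 = 1 := by decide +kernel
  obtain ⟨u, hu⟩ := nf_pow c (ok_true a) v 4
  rw [k2 a (c.injective e2 ▸ h2) (c.injective e3 ▸ h3'), c.one, mul_one] at hu
  refine mem_of_pow_four h3 ⟨u, (k0 u).1 (c.injective ?_), hu⟩
  rw [← c.act _ _ (ok_true _), cj_fix, ← hu]
  exact (Commute.pow_left (H1.T3.mem_cent.1 hg) 4).symm

/-- The element commutes with a conjugate of `τ`. -/
def Tt (μ : SP → G) (g : G) : Prop := ∃ h, Commute (cj h (μ st)) g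

theorem Tt.conj {g g' : G} (h : Tt μ g) (e : IsConj g g') : Tt μ g' := by
  obtain ⟨k, hk⟩ := h
  obtain ⟨l, rfl⟩ := isConj_iff.1 e
  exact ⟨l * k, by rw [mul_cj]; exact cj_comm hk⟩

theorem isConj_cj (l g : G) : IsConj g (cj l g) := isConj_iff.2 ⟨l, rfl⟩

theorem not_Tt [Finite G] (c : Cfg true ξ μ i)
    (F1 : ∀ g, Commute g (ξ (ee 3)) → ∃ v a, g = ξ v * μ a) : ¬ Tt μ (μ s01) := by
  rintro ⟨k, hk⟩
  have h3 : cj k (μ st) ^ 3 = 1 := by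
    rw [← cj_pow, ← c.pow (ok_true _), show st ^ 3 = 1 by decide +kernel, c.one, cj_one]
  obtain ⟨l, hl⟩ := into_D c F1 (R := zpowers (cj k (μ st)))
    (fun ⟨_, n, rfl⟩ => ⟨1, Subtype.ext (by
      change (_ ^ n) ^ 3 ^ 1 = 1
      rw [pow_one, ← zpow_natCast, ← zpow_mul, mul_comm, zpow_mul, zpow_natCast, h3, one_zpow])⟩)
    (by rintro _ ⟨n, rfl⟩; exact hk.zpow_left n)
  obtain ⟨v, -, e⟩ := hl _ (mem_zpowers _)
  exact c.tauJ (l * k) 0 v (by rw [c.zero, one_mul, mul_cj, e])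

theorem not_conj_w [Finite G] (c : Cfg true ξ μ i)
    (F1 : ∀ g, Commute g (ξ (ee 3)) → ∃ v a, g = ξ v * μ a) : ¬ IsConj (μ sw) (μ s01) := by
  intro h
  obtain ⟨g, hg⟩ := isConj_iff.1 h
  have k0 : ∀ v : V, v 0 = v 1 → sw.act v = v := by decide +kernel
  obtain ⟨l, hl⟩ := into_D c F1 (R := (sub c (fun v => v 0 = v 1) rfl
    (fun u v hu hv => by simp [hu, hv]) (fun u hu => by simp [hu])).map
      (MulAut.conj g).toMonoidHom) ((sub_pg _ _ _ _ _).map _) (by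
        rintro _ ⟨_, ⟨v, hv, rfl⟩, rfl⟩
        exact hg ▸ cj_comm (g := g) (c.mxcomm (ok_true _) (k0 v hv)).symm)
  have key : ∀ v : V, v 0 = v 1 → ∃ u : V, (u 0 = 0 ∧ u 1 = 0) ∧ cj (l * g) (ξ v) = ξ u :=
    fun v hv => by
      rw [mul_cj]
      exact hl _ ⟨_, ⟨v, hv, rfl⟩, rfl⟩
  obtain ⟨u1, h1, e1⟩ := key ![1, 1, 0, 0] rfl
  obtain ⟨u2, h2, e2⟩ := key (ee 2) rfl
  obtain ⟨u3, h3, e3⟩ := key (ee 3) rfl
  have k1 : ∀ u1 u2 u3 : V, u1 0 = 0 ∧ u1 1 = 0 → u2 0 = 0 ∧ u2 1 = 0 → u3 0 = 0 ∧ u3 1 = 0 →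
      ∃ p ∈ ([(0, 0, 1), (0, 1, 0), (0, 1, 1), (0, 1, 2), (1, 0, 0), (1, 0, 1), (1, 0, 2), (1, 1, 0),
        (1, 1, 1), (1, 1, 2), (1, 2, 0), (1, 2, 1), (1, 2, 2)] : List (ℕ × ℕ × ℕ)),
        p.1 • u1 + p.2.1 • u2 + p.2.2 • u3 = 0 ∧
          p.1 • (![1, 1, 0, 0] : V) + p.2.1 • ee 2 + p.2.2 • ee 3 ≠ 0 := by
    have : ∀ a1 b1 a2 b2 a3 b3 : ZMod 3,
      ∃ p ∈ ([(0, 0, 1), (0, 1, 0), (0, 1, 1), (0, 1, 2), (1, 0, 0), (1, 0, 1), (1, 0, 2), (1, 1, 0),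
        (1, 1, 1), (1, 1, 2), (1, 2, 0), (1, 2, 1), (1, 2, 2)] : List (ℕ × ℕ × ℕ)),
        p.1 • (![0, 0, a1, b1] : V) + p.2.1 • (![0, 0, a2, b2] : V) +
          p.2.2 • (![0, 0, a3, b3] : V) = 0 ∧
          p.1 • (![1, 1, 0, 0] : V) + p.2.1 • ee 2 + p.2.2 • ee 3 ≠ 0 := by decide +kernel
    have e : ∀ u : V, u 0 = 0 ∧ u 1 = 0 → u = ![0, 0, u 2, u 3] := by decide +kernel
    intro u1 u2 u3 h1 h2 h3
    rw [e u1 h1, e u2 h2, e u3 h3]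
    exact this _ _ _ _ _ _
  obtain ⟨p, -, p1, p2⟩ := k1 u1 u2 u3 h1 h2 h3
  refine p2 (c.inj _ (cj_inj (g := l * g) ?_))
  rw [c.add, c.add, c.nsmul, c.nsmul, c.nsmul, cj_mul, cj_mul, cj_pow, cj_pow, cj_pow, e1, e2, e3,
    ← c.nsmul, ← c.nsmul, ← c.nsmul, ← c.add, ← c.add, p1, c.zero, cj_one]

/-- The diagonal elements of rank two. -/
def dx (f : Fin 4) : XS := ⟨false, f, 0, 0, f⟩

theorem m_inv : ∀ x : XS, sq x = false → ∃ v0 v1 v2 : ZMod 3,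
    am st (ax ![v0, v1, v2, 0] x) = ax ![v0, v1, v2, 0] x ∨
      ∃ a ∈ [1, st, st⁻¹, sg 0, sg 0 * st, sg 0 * st⁻¹, sg 1 * st, sg 1 * st⁻¹],
        am a (ax ![v0, v1, v2, 0] x) = dx 1 ∨ am a (ax ![v0, v1, v2, 0] x) = (dx 1).tw true := by
  decide +kernel

theorem inv_EE (c : Cfg true ξ μ i) (hE : HE ξ μ i) {e : G} (he : e ∈ EE ξ μ i) (h2 : e * e = 1) :
    Tt μ e ∨ IsConj e (el ξ μ i (dx 1)) := by
  obtain ⟨x, rfl⟩ := (mem_EE c hE).1 he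
  rw [el_sq c hE] at h2
  obtain ⟨v0, v1, v2, h | ⟨a, ha, h⟩⟩ := m_inv x (tp_inj c (d := false) h2)
  · refine Or.inl (Tt.conj ⟨1, ?_⟩ (isConj_cj (ξ ![v0, v1, v2, 0]) _).symm)
    rw [one_cj, xi_el c rfl, ← cj_fix, mu_el c hE (ok_true _) (by decide), h]
  · have h3 : a.p 3 = 3 := by clear h; revert a; decide +kernel
    have h4 := (isConj_cj (ξ ![v0, v1, v2, 0]) (el ξ μ i x)).trans (isConj_cj (μ a) _)
    rw [xi_el c rfl, mu_el c hE (ok_true _) h3] at h4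
    rcases h with h | h <;> rw [h] at h4
    · exact Or.inr h4
    · refine Or.inr (h4.trans (IsConj.symm (isConj_iff.2 ⟨el ξ μ i (io 0 2), ?_⟩)))
      rw [el_swap c hE, el_tw c, show cm (io 0 2) (dx 1) = true by decide, ← mul_assoc,
        mul_inv_cancel_right]

theorem conj_dx [Finite G] (c : Cfg true ξ μ i) (hE : HE ξ μ i)
    (F1 : ∀ g, Commute g (ξ (ee 3)) → ∃ v a, g = ξ v * μ a)
    (hb : ∀ g, Commute g (μ (sg 3)) → Commute g (ξ vv) →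
      ∃ e ∈ EE ξ μ i, ∃ v a, g = e * ξ v * μ a) : IsConj (μ s01) (el ξ μ i (dx 1)) := by
  let ρ : SP := ⟨![true, true, false, false], Equiv.swap 0 1 * Equiv.swap 2 3⟩
  let σ : SP := ⟨fun _ => false, Equiv.swap 0 2 * Equiv.swap 1 3⟩
  let u : V := ![1, 1, 0, 0]
  obtain ⟨r1, r2, r3, r4, r5, r6, r7, r8, r9⟩ : ρ.act vv = vv ∧ ρ.act u = -u ∧
      ρ * sg 2 * ρ⁻¹ = sg 3 ∧ σ * s01 * σ⁻¹ = sg 2 * sg 3 ∧ am (sg 2) (dx 3) = dx 3 ∧
      ax vv (dx 3) = dx 3 ∧ (ax u (dx 3)).mul ((dx 3).tw (sq (dx 3))) = dx 1 ∧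
      ((io 0 1).mul (am (sg 2 * sg 3) ((io 0 1).tw (sq (io 0 1))))).tw true = dx 1 ∧
      s01 * s01 = 1 := by decide +kernel
  have o := fun a : SP => ok_true a
  have a1 : cj (μ ρ) (μ (sg 2)) = μ (sg 3) := by rw [c.mcj (o _) (o _), r3]
  have a2 : IsConj (μ s01) (el ξ μ i (dx 1) * μ (sg 2)) := by
    refine ((isConj_cj (μ σ) _).trans (isConj_cj (el ξ μ i (io 0 1)) _)).trans ?_
    rw [c.mcj (o _) (o _), r4, ← r8, el_tw c, ← el_mul c hE, ← mu_el c hE (o _) (by decide),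
      ← el_inv c hE]
    have h1 : tp μ true * (el ξ μ i (io 0 1) * cj (μ (sg 2 * sg 3)) (el ξ μ i (io 0 1))⁻¹) *
        μ (sg 2) = el ξ μ i (io 0 1) * cj (μ (sg 2 * sg 3)) (el ξ μ i (io 0 1))⁻¹ *
          μ (sg 2 * sg 3) := by
      rw [← (tp_comm (comm_t c hE (mul_mem (el_mem c hE _) (nM c hE (o _) (by decide)
        (inv_mem (el_mem c hE _))))) true).eq, mul_assoc, show sg 2 * sg 3 = sg 3 * sg 2 by
          decide +kernel, c.mul (sg 3) (sg 2) (o _) (o _)]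
      rfl
    rw [h1]
    simp only [cj, mul_assoc, inv_mul_cancel, mul_one]
    exact IsConj.refl _
  obtain ⟨e, he, v, a, hm⟩ := hb (cj (μ ρ) (el ξ μ i (dx 3)))
    (a1 ▸ cj_comm (cj_fix.1 (by rw [mu_el c hE (o _) (by decide), r5])).symm) (by
      have := cj_comm (g := μ ρ) (cj_fix.1 ((xi_el c rfl (dx 3)).trans (congrArg _ r6))).symm
      rwa [c.act _ _ (o _), r1] at this)
  have a3 : Commute (cj (μ ρ) (el ξ μ i (dx 3))) (μ (sg 3)) :=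
    a1 ▸ cj_comm (cj_fix.1 (by rw [mu_el c hE (o _) (by decide), r5])).symm
  have a4 : a.p 3 = 3 := by
    have := (comm_t c hE he).inv_left.mul_left a3
    rw [hm, mul_assoc e, inv_mul_cancel_left] at this
    exact (c.nf_t (o _) this).2
  have a5 : a.act u 3 = 0 := by
    have k : ∀ a : SP, a.p 3 = 3 → a.act ![1, 1, 0, 0] 3 = 0 := by decide +kernel
    exact k a a4
  have a6 : cj (μ ρ) (el ξ μ i (dx 1)) =
      cj (ξ (-u)) (e * cj (ξ (a.act u)) e⁻¹) * ξ (-u + a.act u) := by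
    rw [← r7, ← el_mul c hE, ← xi_el c rfl, ← el_inv c hE, cj_mul, cj_cj, cj_inv, hm,
      c.act _ _ (o _), r2, c.add, ← c.act' (o a) v, c.neg]
    simp only [cj]
    group
  have a7 : cj (ξ (-u)) (e * cj (ξ (a.act u)) e⁻¹) ∈ EE ξ μ i :=
    nJ c hE (by decide) (mul_mem he (nJ c hE a5 (inv_mem he)))
  generalize cj (ξ (-u)) (e * cj (ξ (a.act u)) e⁻¹) = e' at a6 a7
  have a8 : (-u + a.act u) 3 = 0 := by rw [Pi.add_apply, a5]; decide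
  generalize -u + a.act u = w at a6 a8
  have a9 : w = 0 := by
    have h1 : e' * ξ w * (e' * ξ w) = 1 := by rw [← a6, ← cj_mul, el_sq c hE]; exact cj_one _
    have h2 : ξ (w + w) = (e' * cj (ξ w) e')⁻¹ := by
      refine eq_inv_of_mul_eq_one_right ?_
      rw [← h1, c.add]
      simp only [cj]
      group
    have k : ∀ w : V, w + w = 0 → w = 0 := by decide +kernel
    exact k w (xi_mem c hE (h2 ▸ inv_mem (mul_mem a7 (nJ c hE a8 a7))))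
  rw [a9, c.zero, mul_one] at a6
  have b1 := a2.trans (isConj_cj (μ ρ) _)
  rw [cj_mul, a1, a6] at b1
  have b2 : e' * μ (sg 3) * (e' * μ (sg 3)) = 1 := by
    obtain ⟨g, hg⟩ := isConj_iff.1 b1
    rw [← hg, conj_mul, c.msq (o _) r9, mul_one, mul_inv_cancel]
  rcases inv_EE c hE (mul_mem a7 (t_mem c hE)) b2 with h | h
  · exact absurd (h.conj b1.symm) (not_Tt c F1)
  · exact b1.trans h

theorem m_sg : ∀ a : SP, a.p = 1 → ∃ s : SP, s * a * s⁻¹ = s01 ∨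
    st * (s * a * s⁻¹) = s * a * s⁻¹ * st := by decide +kernel

theorem noconj [Finite G] (c : Cfg true ξ μ i) (hE : HE ξ μ i)
    (F1 : ∀ g, Commute g (ξ (ee 3)) → ∃ v a, g = ξ v * μ a)
    (hb : ∀ g, Commute g (μ (sg 3)) → Commute g (ξ vv) →
      ∃ e ∈ EE ξ μ i, ∃ v a, g = e * ξ v * μ a) :
    ∀ g e a, e ∈ EE ξ μ i → a.p = 1 → cj g (μ sw) ≠ e * μ a := by
  intro g e a he ha h
  have o := fun a : SP => ok_true a
  have hw : ¬ Tt μ (μ sw) := fun ⟨k, hk⟩ => c.cw rfl k hk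
  have h1 : IsConj (μ sw) (e * μ a) := h ▸ isConj_cj _ _
  have h2 : e * μ a * (e * μ a) = 1 := by
    rw [← h, ← cj_mul, c.msq (o _) (by decide +kernel), cj_one]
  by_cases hk : ∃ k, k ≠ 3 ∧ a.e k = true
  · obtain ⟨f, -, u, -, a', ha', -, e1⟩ := inv_conj c hE he (v := 0) rfl ha hk
      (by rw [c.zero, mul_one, pow_two, h2])
    rw [c.zero, mul_one] at e1
    obtain ⟨s, hs⟩ := m_sg a' ha'
    have h3 := (h1.trans (isConj_cj (f * ξ u) _)).trans (isConj_cj (μ s) _)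
    rw [e1, c.mcj (o _) (o _)] at h3
    rcases hs with hs | hs
    · exact not_conj_w c F1 (hs ▸ h3)
    · exact hw (Tt.conj ⟨1, by rw [one_cj]; exact c.mcomm (o _) (o _) hs⟩ h3.symm)
  · have k : ∀ a : SP, a.p = 1 → (¬ ∃ k, k ≠ 3 ∧ a.e k = true) → a = 1 ∨ a = sg 3 := by
      decide +kernel
    have h3 : μ a ∈ EE ξ μ i := by
      rcases k a ha hk with rfl | rfl
      · rw [c.one]; exact one_mem _
      · exact t_mem c hE
    rcases inv_EE c hE (mul_mem he h3) h2 with h4 | h4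
    · exact hw (h4.conj h1.symm)
    · exact not_conj_w c F1 ((h1.trans h4).trans (conj_dx c hE F1 hb).symm)

end Cfsg.Agent.H6.O8x
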